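import Mathlib
import Cfsg.Prelude.Def_LocalEven
import Cfsg.Agent.Lib.Helper6.PAct

set_option autoImplicit false
set_option linter.unusedSectionVars false

/-! Sections, recognition of symmetric groups, offenders in groups `Q E`. -/

namespace Cfsg.Agent.Lib.Helper6.Off

open Cfsg.Agent.Lib.Helper6.Basic Cfsg.Agent.Lib.Helper6.Subn Cfsg.Agent.Lib.Helper6.Quasi
  Cfsg.Agent.Lib.Helper6.Rad Cfsg.Agent.Lib.Helper6.PAct
open scoped commutatorElement Pointwise

theorem involves_iff {H : Type*} [Group H] {G : Type*} [Group G] :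
    Cfsg.Involves H G ↔ ∃ (K : Subgroup G) (f : ↥K →* H), Function.Surjective f := by
  constructor
  · rintro ⟨K, R, hn, ⟨e⟩⟩
    exact ⟨K, e.toMonoidHom.comp (QuotientGroup.mk' _),
      e.surjective.comp (QuotientGroup.mk'_surjective _)⟩
  · rintro ⟨K, f, hf⟩
    have hR : ((f.ker).map K.subtype).subgroupOf K = f.ker :=
      Subgroup.comap_map_eq_self_of_injective K.subtype_injective f.ker
    have hn : (((f.ker).map K.subtype).subgroupOf K).Normal := by rw [hR]; infer_instance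
    exact ⟨K, (f.ker).map K.subtype, hn,
      ⟨(QuotientGroup.quotientMulEquivOfEq hR).trans (QuotientGroup.quotientKerEquivOfSurjective f hf)⟩⟩

theorem involves_of_le {H : Type*} [Group H] {G : Type*} [Group G] {K M : Subgroup G} (hKM : K ≤ M)
    (f : ↥K →* H) (hf : Function.Surjective f) : Cfsg.Involves H ↥M := by
  rw [involves_iff]
  refine ⟨K.subgroupOf M, f.comp (Subgroup.subgroupOfEquivOfLe hKM).toMonoidHom, ?_⟩
  exact hf.comp (Subgroup.subgroupOfEquivOfLe hKM).surjective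

theorem involves_of_subgroup {H : Type*} [Group H] {G : Type*} [Group G] (L : Subgroup G)
    (h : Cfsg.Involves H ↥L) : Cfsg.Involves H G := by
  rw [involves_iff] at h ⊢
  obtain ⟨K, f, hf⟩ := h
  refine ⟨K.map L.subtype, f.comp (K.equivMapOfInjective L.subtype L.subtype_injective).symm.toMonoidHom, ?_⟩
  exact hf.comp (K.equivMapOfInjective L.subtype L.subtype_injective).symm.surjective

theorem involves_of_quotient {H : Type*} [Group H] {G : Type*} [Group G] (N : Subgroup G) [N.Normal]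
    (h : Cfsg.Involves H (G ⧸ N)) : Cfsg.Involves H G := by
  rw [involves_iff] at h ⊢
  obtain ⟨K, f, hf⟩ := h
  refine ⟨K.comap (QuotientGroup.mk' N), f.comp ((QuotientGroup.mk' N).subgroupComap K), ?_⟩
  exact hf.comp ((QuotientGroup.mk' N).subgroupComap_surjective_of_surjective K
    (QuotientGroup.mk'_surjective N))

/-- coset action onto the full symmetric group -/
theorem exists_surj_perm {K : Type*} [Group K] [Finite K] (H : Subgroup K) (n : ℕ)
    (hidx : H.index = n) (hcore : n.factorial ∣ (H.normalCore).index) :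
    ∃ f : K →* Equiv.Perm (Fin n), Function.Surjective f := by
  have hc : Nat.card (K ⧸ H) = n := by rw [← Subgroup.index_eq_card]; exact hidx
  have e : (K ⧸ H) ≃ Fin n := Finite.equivFinOfCardEq hc
  refine ⟨(e.permCongrHom).toMonoidHom.comp (MulAction.toPermHom K (K ⧸ H)), ?_⟩
  refine (e.permCongrHom).surjective.comp ?_
  rw [← MonoidHom.range_eq_top]
  apply Subgroup.eq_top_of_card_eq
  have h1 : Nat.card (MulAction.toPermHom K (K ⧸ H)).range = (H.normalCore).index := by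
    rw [Subgroup.normalCore_eq_ker, Subgroup.index_ker]
  have h2 : Nat.card (Equiv.Perm (K ⧸ H)) = n.factorial := by
    classical
    have := Fintype.ofFinite (K ⧸ H)
    rw [Nat.card_eq_fintype_card, Fintype.card_perm, ← Nat.card_eq_fintype_card, hc]
  rw [h2]
  apply Nat.dvd_antisymm
  · rw [← h2]; exact Subgroup.card_subgroup_dvd_card _
  · rw [h1]; exact hcore

/-- recognition of `Sym n` as `U ⋊ H` acting on the cosets of `H` -/
theorem exists_surj_perm_of_complement {K : Type*} [Group K] [Finite K] (U H : Subgroup K) [U.Normal]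
    (hsup : U ⊔ H = ⊤) (hinf : U ⊓ H = ⊥) (n : ℕ) (hn : Nat.card U = n)
    (hdvd : n.factorial ∣ (Subgroup.centralizer (U : Set K)).relIndex H * n) :
    ∃ f : K →* Equiv.Perm (Fin n), Function.Surjective f := by
  have hcomp : Subgroup.IsComplement' U H := by
    apply Subgroup.isComplement'_of_disjoint_and_mul_eq_univ (disjoint_iff.mpr hinf)
    rw [← Subgroup.normal_mul, hsup]; rfl
  have hidx : H.index = n := by rw [hcomp.index_eq_card, hn]
  apply exists_surj_perm H n hidx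
  have hle : H.normalCore ≤ H ⊓ Subgroup.centralizer (U : Set K) := by
    intro c hc
    have hcH : c ∈ H := Subgroup.normalCore_le H hc
    refine Subgroup.mem_inf.mpr ⟨hcH, ?_⟩
    rw [Subgroup.mem_centralizer_iff]
    intro u hu
    have h1 : u * c * u⁻¹ * c⁻¹ ∈ H := by
      apply Subgroup.normalCore_le H
      exact (H.normalCore).mul_mem ((Subgroup.normalCore_normal H).conj_mem c hc u) ((H.normalCore).inv_mem hc)
    have h2 : u * c * u⁻¹ * c⁻¹ ∈ U := by
      have := U.mul_mem hu ((inferInstance : U.Normal).conj_mem u⁻¹ (U.inv_mem hu) c)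
      simpa [mul_assoc] using this
    have h3 : u * c * u⁻¹ * c⁻¹ ∈ U ⊓ H := ⟨h2, h1⟩
    rw [hinf, Subgroup.mem_bot] at h3
    have : u * c = c * u := by
      have h4 := congrArg (fun z => z * c * u) h3
      simpa [mul_assoc] using h4
    exact this
  have h1 := Subgroup.index_dvd_of_le hle
  have h2 : (H ⊓ Subgroup.centralizer (U : Set K)).index
      = (Subgroup.centralizer (U : Set K)).relIndex H * n := by
    rw [← Subgroup.relIndex_mul_index (inf_le_left : H ⊓ Subgroup.centralizer (U : Set K) ≤ H), hidx,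
      Subgroup.inf_relIndex_left]
  rw [h2] at h1
  exact hdvd.trans h1

theorem prime_dvd_relIndex {K : Type*} [Group K] [Finite K] (C H : Subgroup K) (hC : H ≤ Nz C) {x : K}
    (hx : x ∈ H) (q : ℕ) [hq : Fact q.Prime] (h1 : x ^ q ∈ C) (h2 : x ∉ C) : q ∣ C.relIndex H := by
  have hn : (C.subgroupOf H).Normal := by
    exact (Subgroup.normal_subgroupOf_iff_le_normalizer_inf).mpr (by
      intro z hz
      have := hC hz
      rw [Subgroup.mem_normalizer_iff] at this ⊢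
      intro w
      rw [Subgroup.mem_inf, Subgroup.mem_inf]
      constructor
      · rintro ⟨a, b⟩
        exact ⟨(this w).mp a, H.mul_mem (H.mul_mem hz b) (H.inv_mem hz)⟩
      · rintro ⟨a, b⟩
        refine ⟨(this w).mpr a, ?_⟩
        have := H.mul_mem (H.mul_mem (H.inv_mem hz) b) hz
        simpa [mul_assoc] using this)
  rw [Subgroup.relIndex, Subgroup.index_eq_card]
  have h3 : orderOf (QuotientGroup.mk' (C.subgroupOf H) ⟨x, hx⟩) = q := by
    apply orderOf_eq_prime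
    · rw [← map_pow, QuotientGroup.mk'_apply, QuotientGroup.eq_one_iff]
      exact Subgroup.mem_subgroupOf.mpr (by simpa using h1)
    · rw [QuotientGroup.mk'_apply, Ne, QuotientGroup.eq_one_iff]
      exact fun h => h2 (Subgroup.mem_subgroupOf.mp h)
  rw [← h3]
  exact orderOf_dvd_natCard _

theorem surj_perm_of_config {X : Type*} [Group X] [Finite X] (U H : Subgroup X) (hHU : H ≤ Nz U)
    (hinf : U ⊓ H = ⊥) (n : ℕ) (hn : Nat.card U = n)
    (hdvd : n.factorial ∣ (Cz U).relIndex H * n) :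
    ∃ f : ↥(U ⊔ H) →* Equiv.Perm (Fin n), Function.Surjective f := by
  have hU : U ≤ U ⊔ H := le_sup_left
  have hH : H ≤ U ⊔ H := le_sup_right
  have hnorm : (U.subgroupOf (U ⊔ H)).Normal := by
    rw [Subgroup.normal_subgroupOf_iff_le_normalizer hU]
    exact sup_le Subgroup.le_normalizer hHU
  apply exists_surj_perm_of_complement (U.subgroupOf (U ⊔ H)) (H.subgroupOf (U ⊔ H))
  · rw [← Subgroup.subgroupOf_sup hU hH, Subgroup.subgroupOf_self]
  · rw [Subgroup.subgroupOf, Subgroup.subgroupOf, ← Subgroup.comap_inf, hinf]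
    exact Subgroup.bot_subgroupOf _
  · rw [Nat.card_congr (Subgroup.subgroupOfEquivOfLe hU).toEquiv, hn]
  · have hc : Subgroup.centralizer ((U.subgroupOf (U ⊔ H) : Subgroup ↥(U ⊔ H)) : Set ↥(U ⊔ H))
        = (Cz U).subgroupOf (U ⊔ H) := by
      ext z
      rw [Subgroup.mem_centralizer_iff, Subgroup.mem_subgroupOf, Subgroup.mem_centralizer_iff]
      constructor
      · intro h u hu
        have := h ⟨u, hU hu⟩ (Subgroup.mem_subgroupOf.mpr hu)
        exact congrArg Subtype.val this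
      · intro h u hu
        exact Subtype.ext (h u.1 (Subgroup.mem_subgroupOf.mp hu))
    rw [hc, Subgroup.relIndex_subgroupOf hH]
    exact hdvd

section step
variable {X : Type*} [Group X]

theorem finset_card_le [Finite X] {U : Subgroup X} (s : Finset X) (h : ∀ x ∈ s, x ∈ U) :
    s.card ≤ Nat.card U := by
  have h1 : ((s : Set X)).ncard ≤ (U : Set X).ncard :=
    Set.ncard_le_ncard (fun x hx => h x (Finset.mem_coe.mp hx)) (Set.toFinite _)
  rw [Set.ncard_coe_finset] at h1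
  exact h1

theorem mem_Nz_of_conj_mem [Finite X] {U : Subgroup X} {g : X} (h : ∀ u ∈ U, g * u * g⁻¹ ∈ U) :
    g ∈ Nz U := by
  rw [← cj_eq_self_iff]
  apply Subgroup.eq_of_le_of_card_ge
  · intro x hx
    rw [mem_cj] at hx
    have := h _ hx
    simpa [mul_assoc] using this
  · rw [card_cj]

theorem conj_mem_of_mem_Nz {U : Subgroup X} {g u : X} (hg : g ∈ Nz U) (hu : u ∈ U) :
    g * u * g⁻¹ ∈ U := (Subgroup.mem_normalizer_iff.mp hg u).mp hu

theorem four_mul [Finite X] {U : Subgroup X} (h4 : Nat.card U = 4) (h2 : ∀ u ∈ U, u * u = 1) {a b d : X}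
    (ha : a ∈ U) (hb : b ∈ U) (hd : d ∈ U) (ha1 : a ≠ 1) (hb1 : b ≠ 1) (hd1 : d ≠ 1)
    (hab : a ≠ b) (had : a ≠ d) (hbd : b ≠ d) : a * b = d := by
  classical
  by_contra hne
  have h1 : a * b ≠ 1 := by
    intro h
    apply hab
    have := h2 b hb
    exact mul_right_cancel (h.trans this.symm)
  have h3 : a * b ≠ a := by
    intro h
    exact hb1 (mul_left_cancel (h.trans (mul_one a).symm))
  have h5 : a * b ≠ b := by
    intro h
    exact ha1 (mul_right_cancel (h.trans (one_mul b).symm))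
  have hc : ({1, a, b, d, a * b} : Finset X).card = 5 := by
    rw [Finset.card_insert_of_notMem, Finset.card_insert_of_notMem, Finset.card_insert_of_notMem,
      Finset.card_insert_of_notMem, Finset.card_singleton]
    · simp only [Finset.mem_singleton]; exact fun h => hne h.symm
    · simp only [Finset.mem_insert, Finset.mem_singleton, not_or]; exact ⟨hbd, fun h => h5 h.symm⟩
    · simp only [Finset.mem_insert, Finset.mem_singleton, not_or]
      exact ⟨hab, had, fun h => h3 h.symm⟩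
    · simp only [Finset.mem_insert, Finset.mem_singleton, not_or]
      exact ⟨ha1.symm, hb1.symm, hd1.symm, h1.symm⟩
  have := finset_card_le (U := U) ({1, a, b, d, a * b} : Finset X) (by
    intro x hx
    simp only [Finset.mem_insert, Finset.mem_singleton] at hx
    rcases hx with rfl | rfl | rfl | rfl | rfl
    · exact U.one_mem
    · exact ha
    · exact hb
    · exact hd
    · exact U.mul_mem ha hb)
  omega

theorem mem_Nz_inf_Cz {V D : Subgroup X} {g : X} (hV : g ∈ Nz V) (hD : g ∈ Nz D) :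
    g ∈ Nz (V ⊓ Cz D) := by
  rw [← cj_eq_self_iff, cj_inf, cj_centralizer, cj_eq_self_iff.mpr hV, cj_eq_self_iff.mpr hD]

theorem Cz_le_Nz (D : Subgroup X) : Cz D ≤ Nz D := by
  intro g hg
  rw [Subgroup.mem_normalizer_iff]
  intro d
  rw [Subgroup.mem_centralizer_iff] at hg
  constructor
  · intro hd
    have := hg d hd
    rw [← this]; simpa using hd
  · intro hd
    have := hg _ hd
    have h2 : g * d * g⁻¹ = d := by
      have h3 : g * d * g⁻¹ * g = g * (g * d * g⁻¹) := this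
      have h4 : g * d = g * (g * d * g⁻¹) := by simpa [mul_assoc] using h3
      exact (mul_left_cancel h4).symm
    rwa [h2] at hd

/-- the key step: a "transvection" `e` on `C_V(D)` inverting an odd order element `y` -/
theorem step [Finite X] {V D : Subgroup X} {y e : X}
    (hVc : ∀ a ∈ V, ∀ b ∈ V, a * b = b * a) (hV2 : ∀ a ∈ V, a * a = 1)
    (hD : IsPGroup 2 ↥D) (hDV : D ≤ Nz V) (hyV : y ∈ Nz V) (heV : e ∈ Nz V)
    (hyD : y ∈ Cz D) (heD : e ∈ Nz D) (hyo : (orderOf y).Coprime 2)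
    (hinv : e * y * e⁻¹ = y⁻¹) (hfaith : ∀ k : ℕ, y ^ k ∈ Cz V → y ^ k = 1) (hy1 : y ≠ 1)
    (hidx : Nat.card ↥(V ⊓ Cz D) ≤ 2 * Nat.card ↥(V ⊓ Cz D ⊓ Subgroup.centralizer {e})) :
    ∃ U : Subgroup X, U ≤ V ⊓ Cz D ∧ Nat.card U = 4 ∧ y ∈ Nz U ∧ e ∈ Nz U ∧ y ^ 3 = 1 ∧
      ∀ u ∈ U, y * u * y⁻¹ = u → u = 1 := by
  classical
  have : Fact (Nat.Prime 2) := ⟨Nat.prime_two⟩
  set W := V ⊓ Cz D with hW
  have hWV : W ≤ V := inf_le_left
  have hyW : y ∈ Nz W := mem_Nz_inf_Cz hyV (Cz_le_Nz D hyD)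
  have heW : e ∈ Nz W := mem_Nz_inf_Cz heV heD
  have hyiW : y⁻¹ ∈ Nz W := (Nz W).inv_mem hyW
  have hVp : IsPGroup 2 ↥V := by
    intro v
    refine ⟨1, ?_⟩
    apply Subtype.ext
    have := hV2 v.1 v.2
    simpa [pow_two] using this
  have hWc : ∀ a ∈ W, ∀ b ∈ W, a * b = b * a := fun a ha b hb => hVc a (hWV ha) b (hWV hb)
  -- the commutator map
  have hδm : ∀ w ∈ W, y * w * y⁻¹ * w⁻¹ ∈ W := fun w hw =>
    W.mul_mem (conj_mem_of_mem_Nz hyW hw) (W.inv_mem hw)
  let δ : ↥W →* ↥W := MonoidHom.mk' (fun w => ⟨y * w.1 * y⁻¹ * w.1⁻¹, hδm w.1 w.2⟩) (by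
    intro a b
    apply Subtype.ext
    show y * (a.1 * b.1) * y⁻¹ * (a.1 * b.1)⁻¹ = (y * a.1 * y⁻¹ * a.1⁻¹) * (y * b.1 * y⁻¹ * b.1⁻¹)
    have h1 := hWc _ (W.inv_mem a.2) _ (hδm b.1 b.2)
    calc y * (a.1 * b.1) * y⁻¹ * (a.1 * b.1)⁻¹
        = y * a.1 * y⁻¹ * ((y * b.1 * y⁻¹ * b.1⁻¹) * a.1⁻¹) := by group
      _ = y * a.1 * y⁻¹ * (a.1⁻¹ * (y * b.1 * y⁻¹ * b.1⁻¹)) := by rw [h1]
      _ = _ := by group)
  have hδ : ∀ w : ↥W, ((δ w : ↥W) : X) = y * w.1 * y⁻¹ * w.1⁻¹ := fun w => rfl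
  set U := δ.range.map W.subtype with hU
  have memU : ∀ u, u ∈ U ↔ ∃ w ∈ W, y * w * y⁻¹ * w⁻¹ = u := by
    intro u
    constructor
    · rintro ⟨z, ⟨w, rfl⟩, rfl⟩
      exact ⟨w.1, w.2, rfl⟩
    · rintro ⟨w, hw, rfl⟩
      exact ⟨δ ⟨w, hw⟩, ⟨⟨w, hw⟩, rfl⟩, rfl⟩
  have hUW : U ≤ W := by
    intro u hu
    obtain ⟨w, hw, rfl⟩ := (memU u).mp hu
    exact hδm w hw
  set CW := W ⊓ Subgroup.centralizer {y} with hCW
  have hker : δ.ker = CW.subgroupOf W := by
    ext w
    rw [MonoidHom.mem_ker, Subgroup.mem_subgroupOf, hCW, Subgroup.mem_inf,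
      Subgroup.mem_centralizer_singleton_iff]
    constructor
    · intro h
      have h1 : y * w.1 * y⁻¹ * w.1⁻¹ = 1 := by rw [← hδ, h]; rfl
      refine ⟨w.2, ?_⟩
      have h2 := congrArg (fun z => z * w.1 * y) h1
      simpa [mul_assoc] using h2.symm
    · rintro ⟨-, h⟩
      apply Subtype.ext
      rw [hδ]
      show y * w.1 * y⁻¹ * w.1⁻¹ = 1
      rw [← h]; group
  have hcard : Nat.card U * Nat.card CW = Nat.card W := by
    have h1 : Nat.card U = Nat.card δ.range :=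
      Subgroup.card_map_of_injective W.subtype_injective
    have h2 : Nat.card CW = Nat.card δ.ker := by
      rw [hker]
      exact (Nat.card_congr (Subgroup.subgroupOfEquivOfLe (inf_le_left : CW ≤ W)).toEquiv).symm
    rw [h1, h2, ← Subgroup.index_ker, mul_comm]
    exact Subgroup.card_mul_index _
  have hU2 : ∀ u ∈ U, u * u = 1 := fun u hu => hV2 u (hWV (hUW hu))
  -- no fixed points
  have hfix : ∀ u ∈ U, y * u * y⁻¹ = u → u = 1 := by
    intro u hu hyu
    obtain ⟨w, hw, hwu⟩ := (memU u).mp hu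
    have h1 : u⁻¹ = 1 := by
      apply eq_one_of_conj_eq_mul (p := 2) (k := 1) (s := w) (x := y) (c := u⁻¹)
      · rw [← hwu]; group
      · apply Commute.inv_left
        show u * y = y * u
        have := congrArg (fun z => z * y) hyu
        simpa [mul_assoc] using this.symm
      · rw [pow_one, pow_two, ← mul_inv_rev, hU2 u hu, inv_one]
      · exact hyo
    exact inv_eq_one.mp h1
  obtain ⟨m, hm⟩ := exists_pow_eq_self_of_coprime hyo.symm
  have hsq : ∀ x : X, y * y * x = x * (y * y) → y * x = x * y := by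
    intro x hx
    have h1 : Commute (y ^ 2) x := by rw [pow_two]; exact hx
    have h2 := h1.pow_left m
    rw [hm] at h2
    exact h2
  have hy2 : e⁻¹ * (y⁻¹ * e * y) = y * y := by
    have h1 : e⁻¹ * y⁻¹ * e = y := by rw [← hinv]; group
    calc e⁻¹ * (y⁻¹ * e * y) = (e⁻¹ * y⁻¹ * e) * y := by group
      _ = y * y := by rw [h1]
  -- index bound
  have hle4 : Nat.card W ≤ 4 * Nat.card CW := by
    set W1 := W ⊓ Subgroup.centralizer {e} with hW1
    have h1 := Cfsg.Agent.Lib.Helper6.Card.card_mul_card_le W1 (cj y⁻¹ W1)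
    rw [card_cj] at h1
    have h2 : W1 ⊔ cj y⁻¹ W1 ≤ W := by
      apply sup_le inf_le_left
      calc cj y⁻¹ W1 ≤ cj y⁻¹ W := cj_mono inf_le_left
        _ = W := cj_eq_self_iff.mpr hyiW
    have h3 : W1 ⊓ cj y⁻¹ W1 ≤ CW := by
      intro x hx
      obtain ⟨hx1, hx2⟩ := Subgroup.mem_inf.mp hx
      rw [mem_cj, inv_inv] at hx2
      obtain ⟨hxW, hxe⟩ := Subgroup.mem_inf.mp hx1
      obtain ⟨-, hxe2⟩ := Subgroup.mem_inf.mp hx2
      rw [Subgroup.mem_centralizer_singleton_iff] at hxe hxe2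
      refine Subgroup.mem_inf.mpr ⟨hxW, ?_⟩
      rw [Subgroup.mem_centralizer_singleton_iff]
      refine (hsq x ?_).symm
      rw [← hy2]
      have h4 : (y⁻¹ * e * y) * x = x * (y⁻¹ * e * y) := by
        have := congrArg (fun z => y⁻¹ * z * y) hxe2
        simp only [mul_assoc, inv_mul_cancel_left, inv_mul_cancel, mul_one] at this
        simpa [mul_assoc] using this.symm
      have h5 : e⁻¹ * x = x * e⁻¹ := by
        have := congrArg (fun z => e⁻¹ * z * e⁻¹) hxe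
        simpa [mul_assoc] using this
      calc e⁻¹ * (y⁻¹ * e * y) * x = e⁻¹ * ((y⁻¹ * e * y) * x) := by group
        _ = e⁻¹ * (x * (y⁻¹ * e * y)) := by rw [h4]
        _ = (e⁻¹ * x) * (y⁻¹ * e * y) := by group
        _ = (x * e⁻¹) * (y⁻¹ * e * y) := by rw [h5]
        _ = _ := by group
    have h4 : Nat.card ↥(W1 ⊔ cj y⁻¹ W1 : Subgroup X) ≤ Nat.card W := Subgroup.card_le_of_le h2
    have h5 : Nat.card ↥(W1 ⊓ cj y⁻¹ W1 : Subgroup X) ≤ Nat.card CW := Subgroup.card_le_of_le h3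
    have h6 : Nat.card W1 * Nat.card W1 ≤ Nat.card W * Nat.card CW :=
      h1.trans (Nat.mul_le_mul h4 h5)
    have h7 : 0 < Nat.card W := Nat.card_pos
    have h8 : Nat.card W * Nat.card W ≤ Nat.card W * (4 * Nat.card CW) := by nlinarith
    exact Nat.le_of_mul_le_mul_left h8 h7
  have hUle : Nat.card U ≤ 4 := by
    have h7 : 0 < Nat.card CW := Nat.card_pos
    have : Nat.card U * Nat.card CW ≤ 4 * Nat.card CW := by rw [hcard]; exact hle4
    exact Nat.le_of_mul_le_mul_right this h7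
  have hyU : y ∈ Nz U := by
    apply mem_Nz_of_conj_mem
    intro u hu
    obtain ⟨w, hw, rfl⟩ := (memU u).mp hu
    exact (memU _).mpr ⟨y * w * y⁻¹, conj_mem_of_mem_Nz hyW hw, by group⟩
  have heU : e ∈ Nz U := by
    apply mem_Nz_of_conj_mem
    intro u hu
    obtain ⟨w, hw, rfl⟩ := (memU u).mp hu
    have hw' : e * w * e⁻¹ ∈ W := conj_mem_of_mem_Nz heW hw
    have hw'' : y⁻¹ * (e * w * e⁻¹) * y ∈ W := by
      have := conj_mem_of_mem_Nz hyiW hw'
      simpa using this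
    have h1 : y * (y⁻¹ * (e * w * e⁻¹) * y) * y⁻¹ * (y⁻¹ * (e * w * e⁻¹) * y)⁻¹ ∈ U :=
      (memU _).mpr ⟨_, hw'', rfl⟩
    have h2 := U.inv_mem h1
    have h3 : e * y⁻¹ * e⁻¹ = y := by
      have := congrArg (fun z => z⁻¹) hinv
      simpa [mul_assoc] using this
    have h4 : e * (y * w * y⁻¹ * w⁻¹) * e⁻¹
        = (e * y * e⁻¹) * (e * w * e⁻¹) * (e * y⁻¹ * e⁻¹) * (e * w * e⁻¹)⁻¹ := by group
    rw [h4, hinv, h3]
    convert h2 using 1
    group
  have hne : U ≠ ⊥ := by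
    intro hbot
    apply hy1
    have h1 : y ∈ Cz W := by
      rw [Subgroup.mem_centralizer_iff]
      intro w hw
      have h2 : y * w * y⁻¹ * w⁻¹ ∈ U := (memU _).mpr ⟨w, hw, rfl⟩
      rw [hbot, Subgroup.mem_bot] at h2
      have := congrArg (fun z => z * w * y) h2
      simpa [mul_assoc] using this.symm
    have h2 := thompson_AxB hVp hD hDV hyV hyD hyo h1
    have := hfaith 1 (by simpa using h2)
    simpa using this
  obtain ⟨u0, hu0, hu01⟩ : ∃ u0 ∈ U, u0 ≠ 1 := by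
    obtain ⟨u, hu⟩ := Subgroup.ne_bot_iff_exists_ne_one.mp hne
    exact ⟨u.1, u.2, fun h => hu (Subtype.ext h)⟩
  have hc1 : ∀ u : X, u ≠ 1 → y * u * y⁻¹ ≠ 1 := by
    intro u hu h
    apply hu
    have := congrArg (fun z => y⁻¹ * z * y) h
    simpa [mul_assoc] using this
  have hcU : ∀ u ∈ U, y * u * y⁻¹ ∈ U := fun u hu => conj_mem_of_mem_Nz hyU hu
  have h3le : 3 ≤ Nat.card U := by
    have hc : ({1, u0, y * u0 * y⁻¹} : Finset X).card = 3 := by
      rw [Finset.card_insert_of_notMem, Finset.card_insert_of_notMem, Finset.card_singleton]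
      · simp only [Finset.mem_singleton]
        exact fun h => hu01 (hfix u0 hu0 h.symm)
      · simp only [Finset.mem_insert, Finset.mem_singleton, not_or]
        exact ⟨hu01.symm, (hc1 u0 hu01).symm⟩
    rw [← hc]
    apply finset_card_le
    intro x hx
    simp only [Finset.mem_insert, Finset.mem_singleton] at hx
    rcases hx with rfl | rfl | rfl
    · exact U.one_mem
    · exact hu0
    · exact hcU _ hu0
  have h4 : Nat.card U = 4 := by
    obtain ⟨n, hn⟩ := IsPGroup.iff_card.mp (hVp.to_le (hUW.trans hWV))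
    rw [hn] at h3le hUle ⊢
    rcases n with _ | _ | _ | n
    · norm_num at h3le
    · norm_num at h3le
    · norm_num
    · have : 0 < 2 ^ n := Nat.pow_pos (by norm_num)
      rw [pow_succ, pow_succ, pow_succ] at hUle
      omega
  have hN : ∀ u ∈ U, u * (y * u * y⁻¹) * (y * (y * u * y⁻¹) * y⁻¹) = 1 := by
    intro u hu
    by_cases hu1 : u = 1
    · subst hu1; group
    have hb := hcU u hu
    have hd := hcU _ hb
    have h5 : u * (y * u * y⁻¹) = y * (y * u * y⁻¹) * y⁻¹ := by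
      apply four_mul h4 hU2 hu hb hd hu1 (hc1 u hu1) (hc1 _ (hc1 u hu1))
      · exact fun h => hu1 (hfix u hu h.symm)
      · intro h
        apply hu1
        apply hfix u hu
        have h6 : y * y * u = u * (y * y) := by
          have := congrArg (fun z => z * y * y) h
          simpa [mul_assoc] using this.symm
        have h7 := hsq u h6
        rw [h7]; group
      · exact fun h => hc1 u hu1 (hfix _ hb h.symm)
    rw [h5]
    exact hU2 _ hd
  have hy3W : y ^ 3 ∈ Cz W := by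
    rw [Subgroup.mem_centralizer_iff]
    intro w hw
    have hu : y * w * y⁻¹ * w⁻¹ ∈ U := (memU _).mpr ⟨w, hw, rfl⟩
    have h5 := hN _ hu
    obtain ⟨u, hudef⟩ : ∃ u, u = y * w * y⁻¹ * w⁻¹ := ⟨_, rfl⟩
    rw [← hudef] at h5 hu
    have h6 : y * w * y⁻¹ = u * w := by rw [hudef]; group
    have h7 : y ^ 3 * w * (y ^ 3)⁻¹ = (y * (y * u * y⁻¹) * y⁻¹) * ((y * u * y⁻¹) * (u * w)) := by
      calc y ^ 3 * w * (y ^ 3)⁻¹ = y * (y * (y * w * y⁻¹) * y⁻¹) * y⁻¹ := by
            rw [show y ^ 3 = y * y * y by rw [pow_succ, pow_two]]; group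
        _ = y * (y * (u * w) * y⁻¹) * y⁻¹ := by rw [h6]
        _ = y * ((y * u * y⁻¹) * (y * w * y⁻¹)) * y⁻¹ := by group
        _ = y * ((y * u * y⁻¹) * (u * w)) * y⁻¹ := by rw [h6]
        _ = (y * (y * u * y⁻¹) * y⁻¹) * ((y * u * y⁻¹) * (y * w * y⁻¹)) := by group
        _ = _ := by rw [h6]
    have hb := hcU u hu
    have hd := hcU _ hb
    have hUc : ∀ a ∈ U, ∀ b ∈ U, a * b = b * a := fun a ha b hb => hWc a (hUW ha) b (hUW hb)
    have h8 : (y * (y * u * y⁻¹) * y⁻¹) * ((y * u * y⁻¹) * u) = 1 := by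
      rw [hUc _ hd _ (U.mul_mem hb hu), hUc _ hb _ hu]
      exact h5
    have h9 : y ^ 3 * w * (y ^ 3)⁻¹ = w := by
      rw [h7, ← mul_assoc (y * u * y⁻¹), ← mul_assoc, h8, one_mul]
    have := congrArg (fun z => z * y ^ 3) h9
    simpa [mul_assoc] using this.symm
  have hy3 : y ^ 3 = 1 := by
    apply hfaith 3
    exact thompson_AxB hVp hD hDV ((Nz V).pow_mem hyV 3) ((Cz D).pow_mem hyD 3)
      (Nat.Coprime.coprime_dvd_left (orderOf_pow_dvd 3) hyo) hy3W
  exact ⟨U, hUW, h4, hyU, heU, hy3, hfix⟩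

/-- a "good configuration": `⟨y, e⟩` induces `S₃` on the four-group `U` -/
def Good (V Q E : Subgroup X) : Prop :=
  ∃ (U : Subgroup X) (y e : X), U ≤ V ∧ Nat.card U = 4 ∧ y ∈ Q ∧ e ∈ E ∧ y ∈ Nz U ∧ e ∈ Nz U ∧
    y ^ 3 = 1 ∧ y ≠ 1 ∧ e * y * e⁻¹ = y⁻¹ ∧ ∀ u ∈ U, y * u * y⁻¹ = u → u = 1

theorem Nz_le_Nz_Cz (D : Subgroup X) : Nz D ≤ Nz (Cz D) := by
  intro g hg
  rw [← cj_eq_self_iff, cj_centralizer, cj_eq_self_iff.mpr hg]

theorem two_pow_le {a b : ℕ} (ha : ∃ i, a = 2 ^ i) (hb : ∃ j, b = 2 ^ j) (h : a < 4 * b) : a ≤ 2 * b := by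
  obtain ⟨i, rfl⟩ := ha
  obtain ⟨j, rfl⟩ := hb
  have h1 : 2 ^ i < 2 ^ (j + 2) := by
    rw [pow_add]; omega
  have h2 : i < j + 2 := (Nat.pow_lt_pow_iff_right (by norm_num)).mp h1
  have h3 : 2 ^ i ≤ 2 ^ (j + 1) := Nat.pow_le_pow_right (by norm_num) (by omega)
  rw [pow_succ] at h3
  omega

theorem chain [Finite X] {V Q E : Subgroup X}
    (hVc : ∀ a ∈ V, ∀ b ∈ V, a * b = b * a) (hV2 : ∀ a ∈ V, a * a = 1)
    (hQo : (Nat.card Q).Coprime 2) (hQV : Q ≤ Nz V) (hEV : E ≤ Nz V) (hEQ : E ≤ Nz Q)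
    (hE : IsPGroup 2 ↥E) (hQf : Q ⊓ Cz V = ⊥)
    (hEab : ∀ a ∈ E, ∀ b ∈ E, a * b * a⁻¹ * b⁻¹ ∈ Cz V) (hE2 : ∀ a ∈ E, a * a ∈ Cz V)
    (hEf : E ⊓ Cz Q ≤ Cz V)
    (hgen : ∀ F : Subgroup X, E ⊓ Cz V ≤ F → F ≤ E → ¬ F ≤ Cz Q → ∃ D : Subgroup X,
      E ⊓ Cz V ≤ D ∧ D ≤ F ∧ Nat.card F = 2 * Nat.card D ∧ ¬ (Q ⊓ Cz D ≤ Cz F))
    (hbad : ¬ Good V Q E) :
    ∀ (n : ℕ) (F : Subgroup X), Nat.card F = n → E ⊓ Cz V ≤ F → F ≤ E →
      Nat.card F ^ 2 * Nat.card ↥(V ⊓ Cz F) ≤ Nat.card ↥(E ⊓ Cz V) ^ 2 * Nat.card V := by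
  have : Fact (Nat.Prime 2) := ⟨Nat.prime_two⟩
  have hVp : IsPGroup 2 ↥V := by
    intro v
    refine ⟨1, ?_⟩
    apply Subtype.ext
    have := hV2 v.1 v.2
    simpa [pow_two] using this
  -- the kernel centralizes `Q`
  have hE0Q : ∀ s ∈ E ⊓ Cz V, ∀ q ∈ Q, s * q = q * s := by
    intro s hs q hq
    have h1 : s * q * s⁻¹ * q⁻¹ ∈ Q := Q.mul_mem (conj_mem_of_mem_Nz (hEQ hs.1) hq) (Q.inv_mem hq)
    have h2 : s * q * s⁻¹ * q⁻¹ ∈ Cz V := by
      have h3 : q * s⁻¹ * q⁻¹ ∈ Cz V :=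
        conj_mem_of_mem_Nz (Nz_le_Nz_Cz V (hQV hq)) ((Cz V).inv_mem hs.2)
      have := (Cz V).mul_mem hs.2 h3
      simpa [mul_assoc] using this
    have h3 : s * q * s⁻¹ * q⁻¹ ∈ Q ⊓ Cz V := ⟨h1, h2⟩
    rw [hQf, Subgroup.mem_bot] at h3
    have := congrArg (fun z => z * q * s) h3
    simpa [mul_assoc] using this
  intro n
  induction n using Nat.strong_induction_on with
  | _ n ih =>
    intro F hn hE0F hFE
    by_cases hFQ : F ≤ Cz Q
    · have h1 : F = E ⊓ Cz V := le_antisymm (le_inf hFE ((le_inf hFE hFQ).trans hEf)) hE0F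
      rw [← h1]
      exact Nat.mul_le_mul_left _ (Subgroup.card_le_of_le inf_le_left)
    obtain ⟨D, hE0D, hDF, hcard, hnot⟩ := hgen F hE0F hFE hFQ
    have hDpos : 0 < Nat.card D := Nat.card_pos
    have ihD := ih (Nat.card D) (by omega) D rfl hE0D (hDF.trans hFE)
    obtain ⟨t, ht, htF⟩ := SetLike.not_le_iff_exists.mp hnot
    obtain ⟨htQ, htD⟩ := Subgroup.mem_inf.mp ht
    rw [Subgroup.mem_centralizer_iff] at htF
    push Not at htF
    obtain ⟨e, heF, het⟩ := htF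
    have heE : e ∈ E := hFE heF
    have heD : e ∈ Nz D := by
      apply mem_Nz_of_conj_mem
      intro d hd
      have h1 : e * d * e⁻¹ * d⁻¹ ∈ E ⊓ Cz V :=
        ⟨E.mul_mem (E.mul_mem (E.mul_mem heE (hFE (hDF hd))) (E.inv_mem heE)) (E.inv_mem (hFE (hDF hd))),
          hEab e heE d (hFE (hDF hd))⟩
      have := D.mul_mem (hE0D h1) hd
      simpa [mul_assoc] using this
    have key : 4 * Nat.card ↥(V ⊓ Cz F) ≤ Nat.card ↥(V ⊓ Cz D) := by
      by_contra hlt
      push Not at hlt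
      apply hbad
      have hsub : V ⊓ Cz F ≤ V ⊓ Cz D ⊓ Subgroup.centralizer {e} := by
        intro v hv
        obtain ⟨hv1, hv2⟩ := Subgroup.mem_inf.mp hv
        refine Subgroup.mem_inf.mpr ⟨Subgroup.mem_inf.mpr ⟨hv1, ?_⟩, ?_⟩
        · exact Subgroup.centralizer_le (by exact_mod_cast hDF) hv2
        · rw [Subgroup.mem_centralizer_singleton_iff]
          exact ((Subgroup.mem_centralizer_iff.mp hv2) e heF).symm
      have hidx : Nat.card ↥(V ⊓ Cz D) ≤ 2 * Nat.card ↥(V ⊓ Cz D ⊓ Subgroup.centralizer {e}) := by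
        apply two_pow_le
        · exact IsPGroup.iff_card.mp (hVp.to_le inf_le_left)
        · exact IsPGroup.iff_card.mp (hVp.to_le (inf_le_left.trans inf_le_left))
        · have := Subgroup.card_le_of_le hsub
          omega
      have hetQ : e * t * e⁻¹ ∈ Q := conj_mem_of_mem_Nz (hEQ heE) htQ
      have hetD : e * t * e⁻¹ ∈ Cz D := conj_mem_of_mem_Nz (Nz_le_Nz_Cz D heD) htD
      have hyQ : t⁻¹ * (e * t * e⁻¹) ∈ Q := Q.mul_mem (Q.inv_mem htQ) hetQ
      have hee : e * e * t = t * (e * e) := hE0Q (e * e) ⟨E.mul_mem heE heE, hE2 e heE⟩ t htQ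
      have hinv : e * (t⁻¹ * (e * t * e⁻¹)) * e⁻¹ = (t⁻¹ * (e * t * e⁻¹))⁻¹ := by
        have h1 : e * e * t * e⁻¹ * e⁻¹ = t := by rw [hee]; group
        calc e * (t⁻¹ * (e * t * e⁻¹)) * e⁻¹ = (e * t * e⁻¹)⁻¹ * (e * e * t * e⁻¹ * e⁻¹) := by group
          _ = (e * t * e⁻¹)⁻¹ * t := by rw [h1]
          _ = _ := by group
      have hy1 : t⁻¹ * (e * t * e⁻¹) ≠ 1 := by
        intro h
        apply het
        have := congrArg (fun z => t * z * e) h
        simpa [mul_assoc] using this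
      obtain ⟨U, hU, hU4, hyU, heU, hy3, hfix⟩ := step (V := V) (D := D) (y := t⁻¹ * (e * t * e⁻¹)) (e := e)
        hVc hV2 (hE.to_le (hDF.trans hFE)) ((hDF.trans hFE).trans hEV) (hQV hyQ) (hEV heE)
        ((Cz D).mul_mem ((Cz D).inv_mem htD) hetD) heD
        (Nat.Coprime.coprime_dvd_left (Subgroup.orderOf_dvd_natCard Q hyQ) hQo) hinv
        (by
          intro k hk
          have : (t⁻¹ * (e * t * e⁻¹)) ^ k ∈ Q ⊓ Cz V := ⟨Q.pow_mem hyQ k, hk⟩
          rwa [hQf, Subgroup.mem_bot] at this) hy1 hidx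
      exact ⟨U, _, e, hU.trans inf_le_left, hU4, hyQ, heE, hyU, heU, hy3, hy1, hinv, hfix⟩
    calc Nat.card F ^ 2 * Nat.card ↥(V ⊓ Cz F)
        = Nat.card D ^ 2 * (4 * Nat.card ↥(V ⊓ Cz F)) := by rw [hcard]; ring
      _ ≤ Nat.card D ^ 2 * Nat.card ↥(V ⊓ Cz D) := Nat.mul_le_mul_left _ key
      _ ≤ _ := ihD

theorem mem_Nz_zpowers_of_inv [Finite X] {y e : X} (hinv : e * y * e⁻¹ = y⁻¹) :
    e ∈ Nz (Subgroup.zpowers y) := by
  apply mem_Nz_of_conj_mem
  rintro _ ⟨k, rfl⟩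
  show e * y ^ k * e⁻¹ ∈ Subgroup.zpowers y
  rw [← conj_zpow, hinv]
  exact (Subgroup.zpowers y).zpow_mem ((Subgroup.zpowers y).inv_mem (Subgroup.mem_zpowers y)) k

theorem good_S4 [Finite X] {V Q E : Subgroup X} (hE2 : ∀ a ∈ E, a * a ∈ Cz V) (h : Good V Q E) :
    Cfsg.Involves (Equiv.Perm (Fin 4)) X := by
  obtain ⟨U, y, e, hUV, h4, hyQ, heE, hyU, heU, hy3, hy1, hinv, hfix⟩ := h
  have : Fact (Nat.Prime 2) := ⟨Nat.prime_two⟩
  have : Fact (Nat.Prime 3) := ⟨Nat.prime_three⟩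
  set H := Subgroup.zpowers y ⊔ Subgroup.zpowers e with hH
  have hyH : y ∈ H := (le_sup_left : Subgroup.zpowers y ≤ H) (Subgroup.mem_zpowers y)
  have heH : e ∈ H := (le_sup_right : Subgroup.zpowers e ≤ H) (Subgroup.mem_zpowers e)
  have hHU : H ≤ Nz U := sup_le (Subgroup.zpowers_le.mpr hyU) (Subgroup.zpowers_le.mpr heU)
  have hHZ : H ≤ Nz (Subgroup.zpowers y) :=
    sup_le Subgroup.le_normalizer (Subgroup.zpowers_le.mpr (mem_Nz_zpowers_of_inv hinv))
  have hoy : orderOf y = 3 := orderOf_eq_prime hy3 hy1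
  have hUy : U ⊓ Subgroup.zpowers y = ⊥ := by
    apply Subgroup.inf_eq_bot_of_coprime
    rw [h4, Nat.card_zpowers, hoy]; norm_num
  have hinf : U ⊓ H = ⊥ := by
    rw [eq_bot_iff]
    intro x hx
    obtain ⟨hxU, hxH⟩ := Subgroup.mem_inf.mp hx
    rw [Subgroup.mem_bot]
    apply hfix x hxU
    have h1 : x * y * x⁻¹ * y⁻¹ ∈ Subgroup.zpowers y :=
      (Subgroup.zpowers y).mul_mem (conj_mem_of_mem_Nz (hHZ hxH) (Subgroup.mem_zpowers y))
        ((Subgroup.zpowers y).inv_mem (Subgroup.mem_zpowers y))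
    have h2 : x * y * x⁻¹ * y⁻¹ ∈ U := by
      have := U.mul_mem hxU (conj_mem_of_mem_Nz hyU (U.inv_mem hxU))
      simpa [mul_assoc] using this
    have h3 : x * y * x⁻¹ * y⁻¹ ∈ U ⊓ Subgroup.zpowers y := ⟨h2, h1⟩
    rw [hUy, Subgroup.mem_bot] at h3
    have h5 : x * y = y * x := by
      have := congrArg (fun z => z * y * x) h3
      simpa [mul_assoc] using this
    rw [← h5]; group
  obtain ⟨u0, hu0, hu01⟩ : ∃ u0 ∈ U, u0 ≠ 1 := by
    have hne : U ≠ ⊥ := by
      intro hb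
      rw [hb] at h4
      simp at h4
    obtain ⟨u, hu⟩ := Subgroup.ne_bot_iff_exists_ne_one.mp hne
    exact ⟨u.1, u.2, fun h => hu (Subtype.ext h)⟩
  have hyC : y ∉ Cz U := by
    intro hc
    apply hu01
    apply hfix u0 hu0
    rw [← (Subgroup.mem_centralizer_iff.mp hc) u0 hu0]; group
  have heC : e ∉ Cz U := by
    intro hc
    apply hu01
    apply hfix u0 hu0
    have hc' := Subgroup.mem_centralizer_iff.mp hc
    have h1 : y⁻¹ * u0 * y = y * u0 * y⁻¹ := by
      have e1 : e⁻¹ * u0 * e = u0 := by rw [mul_assoc, hc' u0 hu0]; group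
      have e2 := hc' _ (conj_mem_of_mem_Nz hyU hu0)
      calc y⁻¹ * u0 * y = (e * y * e⁻¹) * u0 * (e * y * e⁻¹)⁻¹ := by rw [hinv, inv_inv]
        _ = e * (y * (e⁻¹ * u0 * e) * y⁻¹) * e⁻¹ := by group
        _ = e * (y * u0 * y⁻¹) * e⁻¹ := by rw [e1]
        _ = (y * u0 * y⁻¹) * e * e⁻¹ := by rw [e2]
        _ = _ := by group
    have h2 : y⁻¹ = y * y := by
      have : y * y * y = 1 := by rw [← hy3, pow_succ, pow_two]
      exact inv_eq_of_mul_eq_one_left this
    have h3 : y * (y⁻¹ * u0 * y) * y⁻¹ = y * (y * u0 * y⁻¹) * y⁻¹ := by rw [h1]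
    have h4' : u0 = y * y * u0 * (y * y)⁻¹ := by
      calc u0 = y * (y⁻¹ * u0 * y) * y⁻¹ := by group
        _ = y * (y * u0 * y⁻¹) * y⁻¹ := h3
        _ = _ := by group
    rw [← h2, inv_inv] at h4'
    rw [← h1]
    exact h4'.symm
  have hHC : H ≤ Nz (Cz U) := hHU.trans (Nz_le_Nz_Cz U)
  have h3 : 3 ∣ (Cz U).relIndex H := prime_dvd_relIndex (Cz U) H hHC hyH 3 (by rw [hy3]; exact (Cz U).one_mem) hyC
  have h2 : 2 ∣ (Cz U).relIndex H := prime_dvd_relIndex (Cz U) H hHC heH 2 (by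
    rw [pow_two]
    exact Subgroup.centralizer_le (by exact_mod_cast hUV) (hE2 e heE)) heC
  have h6 : 2 * 3 ∣ (Cz U).relIndex H := Nat.Coprime.mul_dvd_of_dvd_of_dvd (by norm_num) h2 h3
  obtain ⟨f, hf⟩ := surj_perm_of_config U H hHU hinf 4 h4 (by
    have : (4 : ℕ).factorial = 2 * 3 * 4 := by decide
    rw [this]
    exact Nat.mul_dvd_mul h6 (dvd_refl 4))
  exact involves_iff.mpr ⟨_, f, hf⟩

theorem good_S3 [Finite X] {V Q E M : Subgroup X} (hQM : Q ≤ M) (hEM : E ≤ M)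
    (hE2 : ∀ a ∈ E, a * a = 1) (h : Good V Q E) : Cfsg.Involves (Equiv.Perm (Fin 3)) ↥M := by
  obtain ⟨U, y, e, hUV, h4, hyQ, heE, hyU, heU, hy3, hy1, hinv, hfix⟩ := h
  have : Fact (Nat.Prime 2) := ⟨Nat.prime_two⟩
  have : Fact (Nat.Prime 3) := ⟨Nat.prime_three⟩
  have hoy : orderOf y = 3 := orderOf_eq_prime hy3 hy1
  have hee := hE2 e heE
  have hHZ : Subgroup.zpowers e ≤ Nz (Subgroup.zpowers y) :=
    Subgroup.zpowers_le.mpr (mem_Nz_zpowers_of_inv hinv)
  have heC : e ∉ Cz (Subgroup.zpowers y) := by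
    intro hc
    apply hy1
    have h1 := (Subgroup.mem_centralizer_iff.mp hc) y (Subgroup.mem_zpowers y)
    have h2 : y = y⁻¹ := by rw [← hinv, ← h1]; group
    have h3 : y * y = 1 := by
      nth_rewrite 1 [h2]
      exact inv_mul_cancel y
    have h5 : y * y * y = 1 := by rw [← hy3, pow_succ, pow_two]
    rw [h3, one_mul] at h5
    exact h5
  have hoe : orderOf e ∣ 2 := orderOf_dvd_of_pow_eq_one (by rw [pow_two]; exact hee)
  have hinf : Subgroup.zpowers y ⊓ Subgroup.zpowers e = ⊥ := by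
    apply Subgroup.inf_eq_bot_of_coprime
    rw [Nat.card_zpowers, Nat.card_zpowers, hoy]
    exact Nat.Coprime.coprime_dvd_right hoe (by norm_num)
  have h2 : 2 ∣ (Cz (Subgroup.zpowers y)).relIndex (Subgroup.zpowers e) :=
    prime_dvd_relIndex _ _ (hHZ.trans (Nz_le_Nz_Cz _)) (Subgroup.mem_zpowers e) 2
      (by rw [pow_two, hee]; exact Subgroup.one_mem _) heC
  obtain ⟨f, hf⟩ := surj_perm_of_config (Subgroup.zpowers y) (Subgroup.zpowers e) hHZ hinf 3
    (by rw [Nat.card_zpowers, hoy]) (by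
      have : (3 : ℕ).factorial = 2 * 3 := by decide
      rw [this]
      exact Nat.mul_dvd_mul h2 (dvd_refl 3))
  exact involves_of_le (sup_le (Subgroup.zpowers_le.mpr (hQM hyQ)) (Subgroup.zpowers_le.mpr (hEM heE))) f hf

end step

end Cfsg.Agent.Lib.Helper6.Off
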