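import Mathlib
import Cfsg.Agent.Lib.Helper6.Off
import Cfsg.Agent.Lib.Helper6.Sig

set_option autoImplicit false
set_option linter.unusedSectionVars false

/-! Hyperplane generation for an abelian odd order group, non-faithful version. -/

namespace Cfsg.Agent.Lib.Helper6.Off2

open Cfsg.Agent.Lib.Helper6.Basic Cfsg.Agent.Lib.Helper6.Subn Cfsg.Agent.Lib.Helper6.Quasi
  Cfsg.Agent.Lib.Helper6.Rad Cfsg.Agent.Lib.Helper6.PAct Cfsg.Agent.Lib.Helper6.Off
  Cfsg.Agent.Lib.Helper6.FStar2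
open scoped commutatorElement Pointwise

variable {X : Type*} [Group X]

theorem hgen_abelian [Finite X] {V Q E : Subgroup X}
    (hQc : ∀ a ∈ Q, ∀ b ∈ Q, a * b = b * a) (hQo : (Nat.card Q).Coprime 2)
    (hEQ : E ≤ Nz Q)
    (hE0Q : ∀ s ∈ E ⊓ Cz V, ∀ q ∈ Q, s * q = q * s)
    (hEab : ∀ a ∈ E, ∀ b ∈ E, a * b * a⁻¹ * b⁻¹ ∈ Cz V) (hE2 : ∀ a ∈ E, a * a ∈ Cz V)
    (F : Subgroup X) (hE0F : E ⊓ Cz V ≤ F) (hFE : F ≤ E) (hFQ : ¬ F ≤ Cz Q) :
    ∃ D : Subgroup X, E ⊓ Cz V ≤ D ∧ D ≤ F ∧ Nat.card F = 2 * Nat.card D ∧ ¬ (Q ⊓ Cz D ≤ Cz F) := by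
  by_contra hcon
  push Not at hcon
  -- step A
  have stepA : ∀ D : Subgroup X, E ⊓ Cz V ≤ D → D ≤ F → ∀ c ∈ F, ∀ z ∈ Q ⊓ Cz D,
      c * z * c⁻¹ ∈ Q ⊓ Cz D ∧ z * (c * z * c⁻¹) ∈ Q ⊓ Cz (D ⊔ Subgroup.zpowers c) := by
    intro D hE0D hDF c hc z hz
    obtain ⟨hzQ, hzD⟩ := Subgroup.mem_inf.mp hz
    have hcE : c ∈ E := hFE hc
    have hcD : c ∈ Nz D := by
      apply mem_Nz_of_conj_mem
      intro d hd
      have h1 : c * d * c⁻¹ * d⁻¹ ∈ E ⊓ Cz V :=
        ⟨E.mul_mem (E.mul_mem (E.mul_mem hcE (hFE (hDF hd))) (E.inv_mem hcE)) (E.inv_mem (hFE (hDF hd))),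
          hEab c hcE d (hFE (hDF hd))⟩
      have := D.mul_mem (hE0D h1) hd
      simpa [mul_assoc] using this
    have h1 : c * z * c⁻¹ ∈ Q := conj_mem_of_mem_Nz (hEQ hcE) hzQ
    have h2 : c * z * c⁻¹ ∈ Cz D := conj_mem_of_mem_Nz (Nz_le_Nz_Cz D hcD) hzD
    refine ⟨Subgroup.mem_inf.mpr ⟨h1, h2⟩, Subgroup.mem_inf.mpr ⟨Q.mul_mem hzQ h1, ?_⟩⟩
    rw [Cz_sup]
    refine Subgroup.mem_inf.mpr ⟨(Cz D).mul_mem hzD h2, ?_⟩
    rw [Cfsg.Agent.Lib.Helper6.Sig.mem_Cz_zpowers]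
    have hcc := hE0Q (c * c) ⟨E.mul_mem hcE hcE, hE2 c hcE⟩ z hzQ
    have h3 : c * (c * z * c⁻¹) * c⁻¹ = z := by
      calc c * (c * z * c⁻¹) * c⁻¹ = (c * c * z) * c⁻¹ * c⁻¹ := by group
        _ = (z * (c * c)) * c⁻¹ * c⁻¹ := by rw [hcc]
        _ = z := by group
    have h4 : c * (z * (c * z * c⁻¹)) * c⁻¹ = z * (c * z * c⁻¹) := by
      calc c * (z * (c * z * c⁻¹)) * c⁻¹ = (c * z * c⁻¹) * (c * (c * z * c⁻¹) * c⁻¹) := by group
        _ = (c * z * c⁻¹) * z := by rw [h3]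
        _ = _ := hQc _ h1 _ hzQ
    have := congrArg (fun w => w * c) h4
    simpa [mul_assoc] using this
  have main : ∀ (n : ℕ) (D : Subgroup X), Nat.card F - Nat.card D = n → E ⊓ Cz V ≤ D → D ≤ F →
      Q ⊓ Cz D ≤ Cz F := by
    intro n
    induction n using Nat.strong_induction_on with
    | _ n ih =>
      intro D hn hE0D hDF
      by_cases hDeq : D = F
      · rw [hDeq]; exact inf_le_right
      have hlt : D < F := lt_of_le_of_ne hDF hDeq
      have hcl : Nat.card D < Nat.card F := by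
        by_contra h
        push Not at h
        exact hDeq (Subgroup.eq_of_le_of_card_ge hDF h)
      obtain ⟨a, haF, haD⟩ := SetLike.exists_of_lt hlt
      have big : ∀ c ∈ F, c ∉ D → Q ⊓ Cz (D ⊔ Subgroup.zpowers c) ≤ Cz F := by
        intro c hc hcD
        have h1 : D < D ⊔ Subgroup.zpowers c := by
          apply lt_of_le_of_ne le_sup_left
          intro h
          apply hcD
          rw [h]
          exact (le_sup_right : Subgroup.zpowers c ≤ _) (Subgroup.mem_zpowers c)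
        have h2 : D ⊔ Subgroup.zpowers c ≤ F := sup_le hDF (Subgroup.zpowers_le.mpr hc)
        have h3 : Nat.card D < Nat.card ↥(D ⊔ Subgroup.zpowers c) := by
          by_contra h
          push Not at h
          exact h1.ne (Subgroup.eq_of_le_of_card_ge h1.le h)
        have h4 : Nat.card ↥(D ⊔ Subgroup.zpowers c) ≤ Nat.card F := Subgroup.card_le_of_le h2
        exact ih _ (by omega) _ rfl (hE0D.trans le_sup_left) h2
      by_cases hcov : ∀ b ∈ F, b ∈ D ∨ b * a⁻¹ ∈ D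
      · apply hcon D hE0D hDF
        have h1 : (F : Set X) ⊆ (D : Set X) ∪ (fun d => d * a) '' (D : Set X) := by
          intro b hb
          rcases hcov b hb with h | h
          · exact Or.inl h
          · exact Or.inr ⟨b * a⁻¹, h, by simp⟩
        have h2 : (F : Set X).ncard ≤ (D : Set X).ncard + (D : Set X).ncard := by
          calc (F : Set X).ncard ≤ ((D : Set X) ∪ (fun d => d * a) '' (D : Set X)).ncard :=
                Set.ncard_le_ncard h1 (Set.toFinite _)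
            _ ≤ (D : Set X).ncard + ((fun d => d * a) '' (D : Set X)).ncard := Set.ncard_union_le _ _
            _ ≤ _ := Nat.add_le_add_left (Set.ncard_image_le (Set.toFinite _)) _
        have h3 : Nat.card F ≤ Nat.card D + Nat.card D := h2
        obtain ⟨k, hk⟩ := Subgroup.card_dvd_of_le hDF
        have hpos : 0 < Nat.card D := Nat.card_pos
        have h4 : k ≤ 2 := by
          apply Nat.le_of_mul_le_mul_left _ hpos
          rw [← hk]; omega
        have h5 : 1 < k := by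
          apply Nat.lt_of_mul_lt_mul_left (a := Nat.card D)
          rw [← hk]; omega
        have h6 : k = 2 := by omega
        rw [hk, h6]; ring
      push Not at hcov
      obtain ⟨b, hbF, hbD, hbaD⟩ := hcov
      intro x hx
      obtain ⟨hxQ, hxD⟩ := Subgroup.mem_inf.mp hx
      have hA := stepA D hE0D hDF a haF x hx
      have hB := stepA D hE0D hDF b hbF x hx
      have hC := stepA D hE0D hDF (b * a⁻¹) (F.mul_mem hbF (F.inv_mem haF)) _ hA.1
      have p1 := big a haF haD hA.2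
      have p2 := big b hbF hbD hB.2
      have p3 := big _ (F.mul_mem hbF (F.inv_mem haF)) hbaD hC.2
      have e3 : b * a⁻¹ * (a * x * a⁻¹) * (b * a⁻¹)⁻¹ = b * x * b⁻¹ := by group
      rw [e3] at p3
      have haQ := (Subgroup.mem_inf.mp hA.1).1
      have hbQ := (Subgroup.mem_inf.mp hB.1).1
      have hxx : x * x = (x * (a * x * a⁻¹)) * (x * (b * x * b⁻¹)) * (a * x * a⁻¹ * (b * x * b⁻¹))⁻¹ := by
        have c1 := hQc _ haQ _ hxQ
        calc x * x = x * (x * (a * x * a⁻¹)) * (b * x * b⁻¹) * (a * x * a⁻¹ * (b * x * b⁻¹))⁻¹ := by group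
          _ = x * ((a * x * a⁻¹) * x) * (b * x * b⁻¹) * (a * x * a⁻¹ * (b * x * b⁻¹))⁻¹ := by rw [c1]
          _ = _ := by group
      have hxxF : x * x ∈ Cz F := by
        rw [hxx]
        exact (Cz F).mul_mem ((Cz F).mul_mem p1 p2) ((Cz F).inv_mem p3)
      have hxo : (orderOf x).Coprime 2 :=
        Nat.Coprime.coprime_dvd_left (Subgroup.orderOf_dvd_natCard Q hxQ) hQo
      obtain ⟨m, hm⟩ := exists_pow_eq_self_of_coprime hxo.symm
      rw [← hm, pow_two]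
      exact (Cz F).pow_mem hxxF m
  apply hFQ
  rw [Subgroup.le_centralizer_iff]
  have h1 := main _ (E ⊓ Cz V) rfl le_rfl hE0F
  refine le_trans ?_ h1
  refine le_inf le_rfl ?_
  intro q hq
  rw [Subgroup.mem_centralizer_iff]
  intro s hs
  exact hE0Q s hs q hq

theorem kernel_centralizes {V Q E : Subgroup X} (hQV : Q ≤ Nz V) (hEQ : E ≤ Nz Q)
    (hQf : Q ⊓ Cz V = ⊥) : ∀ s ∈ E ⊓ Cz V, ∀ q ∈ Q, s * q = q * s := by
  intro s hs q hq
  have h1 : s * q * s⁻¹ * q⁻¹ ∈ Q := Q.mul_mem (conj_mem_of_mem_Nz (hEQ hs.1) hq) (Q.inv_mem hq)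
  have h2 : s * q * s⁻¹ * q⁻¹ ∈ Cz V := by
    have h3 : q * s⁻¹ * q⁻¹ ∈ Cz V :=
      conj_mem_of_mem_Nz (Nz_le_Nz_Cz V (hQV hq)) ((Cz V).inv_mem hs.2)
    have := (Cz V).mul_mem hs.2 h3
    simpa [mul_assoc] using this
  have h3 : s * q * s⁻¹ * q⁻¹ ∈ Q ⊓ Cz V := ⟨h1, h2⟩
  rw [hQf, Subgroup.mem_bot] at h3
  have := congrArg (fun z => z * q * s) h3
  simpa [mul_assoc] using this

/-- an offender in `S = C(V) T` on `V`, with `T` acting on the abelian odd order group `Q`, produces `S₄` -/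
theorem offender_S4 [Finite X] {V Q T B : Subgroup X} [hVn : V.Normal]
    (hVc : ∀ a ∈ V, ∀ b ∈ V, a * b = b * a) (hV2 : ∀ a ∈ V, a * a = 1)
    (hQc : ∀ a ∈ Q, ∀ b ∈ Q, a * b = b * a) (hQo : (Nat.card Q).Coprime 2)
    (hQf : Q ⊓ Cz V = ⊥) (hT : IsPGroup 2 ↥T) (hTQ : T ≤ Nz Q) (hTf : T ⊓ Cz Q ≤ Cz V)
    (hBS : B ≤ Cz V ⊔ T) (hBc : ∀ a ∈ B, ∀ b ∈ B, a * b = b * a) (hB2 : ∀ b ∈ B, b * b ∈ Cz V)
    (hBV : ¬ B ≤ Cz V)
    (hoff : Nat.card ↥(B ⊓ Cz V) * Nat.card V ≤ Nat.card B * Nat.card ↥(V ⊓ Cz B)) :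
    Cfsg.Involves (Equiv.Perm (Fin 4)) X := by
  have hRn : (Cz V).Normal := Subgroup.normal_centralizer
  have hNV : ∀ K : Subgroup X, K ≤ Nz V := fun K => by
    rw [show Nz V = ⊤ from Subgroup.normalizer_eq_top_iff.mpr hVn]; exact le_top
  have hNR : ∀ K : Subgroup X, K ≤ Nz (Cz V) := fun K => by
    rw [show Nz (Cz V) = ⊤ from Subgroup.normalizer_eq_top_iff.mpr hRn]; exact le_top
  set R := Cz V with hR
  set E := T ⊓ (B ⊔ R) with hE
  have hER : E ⊔ R = B ⊔ R := by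
    apply le_antisymm (sup_le inf_le_right le_sup_right)
    apply sup_le _ le_sup_right
    intro b hb
    have h1 : b ∈ ((R ⊔ T : Subgroup X) : Set X) := hBS hb
    rw [Subgroup.normal_mul] at h1
    obtain ⟨r, hr, t, ht, rfl⟩ := Set.mem_mul.mp h1
    have h2 : t ∈ E := by
      refine Subgroup.mem_inf.mpr ⟨ht, ?_⟩
      have h3 : r⁻¹ * (r * t) ∈ B ⊔ R :=
        (B ⊔ R).mul_mem ((le_sup_right : R ≤ B ⊔ R) (R.inv_mem hr)) ((le_sup_left : B ≤ B ⊔ R) hb)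
      simpa using h3
    exact (E ⊔ R).mul_mem ((le_sup_right : R ≤ E ⊔ R) hr) ((le_sup_left : E ≤ E ⊔ R) h2)
  have hdec : ∀ a ∈ E, ∃ b ∈ B, QuotientGroup.mk' R a = QuotientGroup.mk' R b := by
    intro a ha
    have h1 : a ∈ ((B ⊔ R : Subgroup X) : Set X) := (inf_le_right : E ≤ B ⊔ R) ha
    rw [Subgroup.mul_normal] at h1
    obtain ⟨b, hb, r, hr, rfl⟩ := Set.mem_mul.mp h1
    refine ⟨b, hb, ?_⟩
    have hr1 : QuotientGroup.mk' R r = 1 := (QuotientGroup.eq_one_iff r).mpr hr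
    rw [map_mul, hr1, mul_one]
  have hmem : ∀ a : X, a ∈ R ↔ QuotientGroup.mk' R a = 1 := fun a => (QuotientGroup.eq_one_iff a).symm
  have hEab : ∀ a ∈ E, ∀ b ∈ E, a * b * a⁻¹ * b⁻¹ ∈ R := by
    intro a ha a' ha'
    obtain ⟨b, hb, e1⟩ := hdec a ha
    obtain ⟨b', hb', e2⟩ := hdec a' ha'
    rw [hmem, map_mul, map_mul, map_mul, map_inv, map_inv, e1, e2, ← map_inv, ← map_inv, ← map_mul,
      ← map_mul, ← map_mul, hBc b hb b' hb']
    have : b' * b * b⁻¹ * b'⁻¹ = 1 := by group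
    rw [this, map_one]
  have hE2 : ∀ a ∈ E, a * a ∈ R := by
    intro a ha
    obtain ⟨b, hb, e1⟩ := hdec a ha
    rw [hmem, map_mul, e1, ← map_mul, ← hmem]
    exact hB2 b hb
  have hEQ : E ≤ Nz Q := inf_le_left.trans hTQ
  have hEp : IsPGroup 2 ↥E := hT.to_le inf_le_left
  have hVR : V ≤ Cz R := Subgroup.le_centralizer_iff.mp le_rfl
  have hCE : V ⊓ Cz E = V ⊓ Cz B := by
    have h1 : V ⊓ Cz E = V ⊓ Cz (E ⊔ R) := by
      rw [Cz_sup, ← inf_assoc]
      exact (inf_eq_left.mpr (inf_le_left.trans hVR)).symm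
    have h2 : V ⊓ Cz B = V ⊓ Cz (B ⊔ R) := by
      rw [Cz_sup, ← inf_assoc]
      exact (inf_eq_left.mpr (inf_le_left.trans hVR)).symm
    rw [h1, h2, hER]
  by_contra hno
  have hbad : ¬ Good V Q E := fun h => hno (good_S4 hE2 h)
  have hE0Q := kernel_centralizes (E := E) (hNV Q) hEQ hQf
  have hmain := chain hVc hV2 hQo (hNV Q) (hNV E) hEQ hEp hQf hEab hE2
    ((inf_le_inf_right _ inf_le_left).trans hTf)
    (fun F h1 h2 h3 => hgen_abelian hQc hQo hEQ hE0Q hEab hE2 F h1 h2 h3)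
    hbad (Nat.card E) E rfl inf_le_left le_rfl
  rw [hCE] at hmain
  have c1 := card_sup_mul (hNR E)
  have c2 := card_sup_mul (hNR B)
  rw [sup_comm, hER, inf_comm] at c1
  rw [sup_comm, inf_comm] at c2
  have hb0 : Nat.card ↥(B ⊓ R) < Nat.card B := by
    by_contra h
    push Not at h
    apply hBV
    have := Subgroup.eq_of_le_of_card_ge (inf_le_left : B ⊓ R ≤ B) h
    rw [← this]; exact inf_le_right
  have arith : ∀ s e0 e r b0 b c v : ℕ, 0 < s → 0 < e0 → 0 < e → 0 < b0 → 0 < c → s * e0 = r * e →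
      s * b0 = r * b → b0 * v ≤ b * c → e ^ 2 * c ≤ e0 ^ 2 * v → b0 < b → False := by
    intro s e0 e r b0 b c v hs he0 he hb0 hc c1 c2 hoff hmain hlt
    have k1 : e0 * b = b0 * e := by
      apply Nat.eq_of_mul_eq_mul_left hs
      calc s * (e0 * b) = (s * e0) * b := by ring
        _ = (s * b0) * e := by rw [c1, c2]; ring
        _ = _ := by ring
    have k2 : e ^ 2 * b0 * c ≤ e0 ^ 2 * b * c := by
      calc e ^ 2 * b0 * c = (e ^ 2 * c) * b0 := by ring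
        _ ≤ (e0 ^ 2 * v) * b0 := Nat.mul_le_mul_right _ hmain
        _ = e0 ^ 2 * (b0 * v) := by ring
        _ ≤ e0 ^ 2 * (b * c) := Nat.mul_le_mul_left _ hoff
        _ = _ := by ring
    have k3 : e ^ 2 * b0 ≤ e0 ^ 2 * b := Nat.le_of_mul_le_mul_right k2 hc
    have k4 : e * (e * b0) ≤ e0 * (e * b0) := by
      calc e * (e * b0) = e ^ 2 * b0 := by ring
        _ ≤ e0 ^ 2 * b := k3
        _ = e0 * (e0 * b) := by ring
        _ = e0 * (e * b0) := by rw [k1]; ring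
    have k5 : e ≤ e0 := Nat.le_of_mul_le_mul_right k4 (Nat.mul_pos he hb0)
    have k6 : e0 * b ≤ e0 * b0 := by
      calc e0 * b = b0 * e := k1
        _ ≤ b0 * e0 := Nat.mul_le_mul_left _ k5
        _ = _ := by ring
    have k7 : b ≤ b0 := Nat.le_of_mul_le_mul_left k6 he0
    omega
  exact arith _ _ _ _ _ _ _ _ Nat.card_pos Nat.card_pos Nat.card_pos Nat.card_pos Nat.card_pos c1 c2
    hoff hmain hb0

end Cfsg.Agent.Lib.Helper6.Off2
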