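import Mathlib
import Cfsg.Agent.Lib.Helper6.Off2
import Cfsg.Agent.Lib.Helper3.PAction

set_option autoImplicit false
set_option linter.unusedSectionVars false

/-! Quadratic offenders inside an abelian offender. -/

namespace Cfsg.Agent.Lib.Helper6.Off3

open Cfsg.Agent.Lib.Helper6.Basic Cfsg.Agent.Lib.Helper6.Subn Cfsg.Agent.Lib.Helper6.Quasi
  Cfsg.Agent.Lib.Helper6.Rad Cfsg.Agent.Lib.Helper6.Off Cfsg.Agent.Lib.Helper6.Off2
open Cfsg.Agent.Lib.Helper3.PLocal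
open scoped commutatorElement Pointwise

universe u
variable {X : Type u} [Group X]

theorem quad_offender [Finite X] {V A : Subgroup X}
    (hVc : ∀ a ∈ V, ∀ b ∈ V, a * b = b * a) (hV2 : ∀ a ∈ V, a * a = 1) (hAV : A ≤ Nz V)
    (hAc : ∀ a ∈ A, ∀ b ∈ A, a * b = b * a) (hAp : IsPGroup 2 ↥A) (hnot : ¬ A ≤ Cz V)
    (hoff : Nat.card ↥(A ⊓ Cz V) * Nat.card V ≤ Nat.card A * Nat.card ↥(V ⊓ Cz A)) :
    ∃ B : Subgroup X, B ≤ A ∧ ¬ B ≤ Cz V ∧ (∀ b ∈ B, b * b ∈ Cz V) ∧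
      Nat.card ↥(B ⊓ Cz V) * Nat.card V ≤ Nat.card B * Nat.card ↥(V ⊓ Cz B) := by
  have : Fact (Nat.Prime 2) := ⟨Nat.prime_two⟩
  have hVp : IsPGroup 2 ↥V := by
    intro v
    refine ⟨1, ?_⟩
    apply Subtype.ext
    have := hV2 v.1 v.2
    simpa [pow_two] using this
  have hCVk : ∀ K : Subgroup X, K ≤ Cz V → CV V K = V := by
    intro K hK
    exact inf_eq_left.mpr (Subgroup.le_centralizer_iff.mp hK)
  obtain ⟨B1, hB1, hmax1⟩ := Set.exists_max_image {B : Subgroup X | B ≤ A} (fun B => meas V B)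
    (Set.toFinite _) ⟨A, (le_refl A : A ≤ A)⟩
  have hne : {B : Subgroup X | B ≤ A ∧ (∀ C : Subgroup X, C ≤ A → meas V C ≤ meas V B) ∧ ¬ B ≤ Cz V}.Nonempty := by
    by_cases h1 : B1 ≤ Cz V
    · refine ⟨A, le_rfl, ?_, hnot⟩
      intro C hC
      refine (hmax1 C hC).trans ?_
      show Nat.card B1 * Nat.card (CV V B1) ≤ Nat.card A * Nat.card (CV V A)
      rw [hCVk B1 h1]
      refine le_trans ?_ hoff
      exact Nat.mul_le_mul_right _ (Subgroup.card_le_of_le (le_inf hB1 h1))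
    · exact ⟨B1, hB1, hmax1, h1⟩
  obtain ⟨B, ⟨hBA, hBmax, hBV⟩, hBmin⟩ := Set.exists_min_image _ (fun B : Subgroup X => Nat.card B)
    (Set.toFinite _) hne
  have hBN : B ≤ Subgroup.normalizer (V : Set X) := hBA.trans hAV
  have hBB : ⁅B, B⁆ = ⊥ := by
    rw [Subgroup.commutator_eq_bot_iff_le_centralizer]
    intro b hb
    rw [Subgroup.mem_centralizer_iff]
    intro c hc
    exact hAc c (hBA hc) b (hBA hb)
  have hab : ⁅B, B⁆ ≤ Subgroup.centralizer (V : Set X) := by rw [hBB]; exact bot_le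
  have hbest : ∀ C : Subgroup X, C ≤ B → meas V C ≤ meas V B := fun C hC => hBmax C (hC.trans hBA)
  have h := timmesfeld hVc hBN hab hbest (le_rfl : V ≤ V)
  have hB'V : ¬ CA B ⁅V, B⁆ ≤ Cz V := by
    intro hle
    apply hBV
    have h2 : V = ⁅V, B⁆ ⊔ CV V B := by
      rw [← h.2]; exact (hCVk _ hle).symm
    have h3 : ⁅V, B⁆ ≤ ⁅⁅V, B⁆, B⁆ := by
      conv_lhs => rw [h2]
      rw [comm_sup_left hVc hBN (comm_le_V hBN le_rfl) inf_le_left]
      apply sup_le le_rfl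
      have : ⁅CV V B, B⁆ = ⊥ := by
        rw [Subgroup.commutator_comm, Subgroup.commutator_eq_bot_iff_le_centralizer]
        rw [Subgroup.le_centralizer_iff]
        exact inf_le_right
      rw [this]
      exact bot_le
    have h4 : ⁅V, B⁆ = ⊥ := eq_bot_of_le_comm_pgroup (hVp.to_le (comm_le_V hBN le_rfl)) (hAp.to_le hBA)
      (le_normalizer_comm V B) h3
    rw [Subgroup.commutator_comm, Subgroup.commutator_eq_bot_iff_le_centralizer] at h4
    exact h4
  have hB' : CA B ⁅V, B⁆ = B := by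
    apply Subgroup.eq_of_le_of_card_ge inf_le_left
    apply hBmin
    refine ⟨inf_le_left.trans hBA, ?_, hB'V⟩
    intro C hC
    rw [h.1]
    exact hBmax C hC
  have hquad : B ≤ Cz ⁅V, B⁆ := by
    have h9 : CA B ⁅V, B⁆ ≤ Cz ⁅V, B⁆ := inf_le_right
    rwa [hB'] at h9
  refine ⟨B, hBA, hBV, ?_, ?_⟩
  · intro b hb
    rw [Subgroup.mem_centralizer_iff]
    intro v hv
    have hc : ⁅v, b⁆ ∈ ⁅V, B⁆ := Subgroup.commutator_mem_commutator hv hb
    have hcV : ⁅v, b⁆ ∈ V := comm_le_V hBN le_rfl hc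
    have hcb : ⁅v, b⁆ * b = b * ⁅v, b⁆ := (Subgroup.mem_centralizer_iff.mp (hquad hb)) _ hc
    have hcc := hV2 _ hcV
    obtain ⟨c, hcdef⟩ : ∃ c, c = ⁅v, b⁆ := ⟨_, rfl⟩
    rw [← hcdef] at hcb hcc
    have h5 : v * b * v⁻¹ = c * b := by
      rw [hcdef, commutatorElement_def]; group
    have h6 : v * (b * b) * v⁻¹ = b * b := by
      calc v * (b * b) * v⁻¹ = (v * b * v⁻¹) * (v * b * v⁻¹) := by group
        _ = (c * b) * (c * b) := by rw [h5]
        _ = c * (b * c) * b := by group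
        _ = c * (c * b) * b := by rw [hcb]
        _ = (c * c) * (b * b) := by group
        _ = b * b := by rw [hcc, one_mul]
    have := congrArg (fun z => z * v) h6
    simpa [mul_assoc] using this
  · have h7 := hBmax (B ⊓ Cz V) (inf_le_left.trans hBA)
    have h8 : meas V (B ⊓ Cz V) = Nat.card ↥(B ⊓ Cz V) * Nat.card V := by
      show Nat.card ↥(B ⊓ Cz V) * Nat.card (CV V (B ⊓ Cz V)) = _
      rw [hCVk _ inf_le_right]
    rw [h8] at h7
    exact h7

end Cfsg.Agent.Lib.Helper6.Off3
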