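import Mathlib
import Cfsg.Prelude.Def_Characters
import Cfsg.Agent.Lib.Helper7.All1
import Cfsg.Agent.Lib.Helper7.CharFS
import Cfsg.Agent.Lib.Helper7.CharFS2
import Cfsg.Agent.Lib.Helper7.CharDeg
import Cfsg.Agent.S0012

set_option autoImplicit false

namespace Cfsg.Agent.Lib.Helper6.SqRoots

open Cfsg
open Cfsg.Agent.Lib.Helper7.CharBasic Cfsg.Agent.Lib.Helper7.CharIrr Cfsg.Agent.Lib.Helper7.CharDecomp Cfsg.Agent.Lib.Helper7.CharComplete Cfsg.Agent.Lib.Helper7.CharOrth Cfsg.Agent.Lib.Helper7.CharLinear Cfsg.Agent.Lib.Helper7.CharMore Cfsg.Agent.Lib.Helper7.CharNormal2 Cfsg.Agent.Lib.Helper7.CharFS Cfsg.Agent.Lib.Helper7.CharFS2 Cfsg.Agent.Lib.Helper7.CharDeg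
open scoped ComplexConjugate commutatorElement

/-! ### an abstract orbit-sum divisibility lemma -/

theorem orbit_sum_dvd {Λ X : Type*} [Group Λ] [MulAction Λ X] [Fintype X] (F : X → ℂ)
    (hF : ∀ (l : Λ) (x : X), F (l • x) = F x) (m : ℕ)
    (h : ∀ x : X, ∃ z : ℤ, (Nat.card (MulAction.orbit Λ x) : ℂ) * F x = (m : ℂ) * z) :
    ∃ z : ℤ, ∑ x : X, F x = (m : ℂ) * z := by
  classical
  rw [Finset.sum_partition (MulAction.orbitRel Λ X)]
  apply Finset.sum_induction _ (fun c : ℂ => ∃ z : ℤ, c = (m : ℂ) * z)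
  · rintro a b ⟨z, rfl⟩ ⟨w, rfl⟩
    exact ⟨z + w, by push_cast; ring⟩
  · exact ⟨0, by simp⟩
  · intro q hq
    obtain ⟨x, -, rfl⟩ := Finset.mem_image.1 hq
    obtain ⟨z, hz⟩ := h x
    refine ⟨z, ?_⟩
    rw [← hz]
    have h1 : ∀ y ∈ Finset.univ.filter (fun y : X => (Quotient.mk (MulAction.orbitRel Λ X) y) = Quotient.mk (MulAction.orbitRel Λ X) x), F y = F x := by
      intro y hy
      have hy' := (Finset.mem_filter.1 hy).2
      have hy2 : y ∈ MulAction.orbit Λ x := MulAction.orbitRel_apply.1 (Quotient.exact hy')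
      obtain ⟨l, rfl⟩ := hy2
      exact hF l x
    rw [Finset.sum_congr rfl h1, Finset.sum_const, nsmul_eq_mul]
    congr 2
    rw [Nat.card_eq_fintype_card, Fintype.card_subtype]
    congr 1
    ext y
    simp only [Finset.mem_filter, Finset.mem_univ, true_and]
    constructor
    · intro hy'
      exact MulAction.orbitRel_apply.1 (Quotient.exact hy')
    · intro hy'
      exact Quotient.sound (MulAction.orbitRel_apply.2 hy')

/-! ### linear characters acting on irreducible characters -/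

section act

variable {G : Type*} [Group G] [Fintype G]

theorem hom_mul_conj (l : G →* ℂˣ) (g : G) : ((l g : ℂˣ) : ℂ) * conj ((l g : ℂˣ) : ℂ) = 1 := by
  have h1 : ((l g : ℂˣ) : ℂ) ^ (Fintype.card G) = 1 := by
    have : (l g) ^ (Fintype.card G) = 1 := by rw [← map_pow, pow_card_eq_one, map_one]
    have h2 := congrArg (fun u : ℂˣ => (u : ℂ)) this
    simpa using h2
  have h2 : ‖((l g : ℂˣ) : ℂ)‖ = 1 :=
    Complex.norm_eq_one_of_pow_eq_one h1 Fintype.card_ne_zero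
  rw [Complex.mul_conj, Complex.normSq_eq_norm_sq, h2]
  simp

theorem isIrr_hom_mul (l : G →* ℂˣ) {χ : G → ℂ} (hχ : IsIrrCharacter G χ) :
    IsIrrCharacter G (fun g => ((l g : ℂˣ) : ℂ) * χ g) := by
  rw [isIrrCharacter_iff_norm_one] at hχ ⊢
  refine ⟨isCharacter_mul (IsIrrCharacter.isCharacter (isIrrCharacter_of_hom l)) hχ.1, ?_⟩
  rw [← hχ.2]
  unfold classInner
  congr 1
  apply Finset.sum_congr rfl
  intro g _
  rw [map_mul]
  calc ((l g : ℂˣ) : ℂ) * χ g * (conj ((l g : ℂˣ) : ℂ) * conj (χ g))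
      = (((l g : ℂˣ) : ℂ) * conj ((l g : ℂˣ) : ℂ)) * (χ g * conj (χ g)) := by ring
    _ = χ g * conj (χ g) := by rw [hom_mul_conj, one_mul]

noncomputable instance linAct : MulAction (G →* ℂˣ) (IrrCharacter G) where
  smul l χ := ⟨fun g => ((l g : ℂˣ) : ℂ) * (χ : G → ℂ) g, isIrr_hom_mul l χ.2⟩
  one_smul χ := by
    apply Subtype.ext
    funext g
    show (((1 : G →* ℂˣ) g : ℂˣ) : ℂ) * (χ : G → ℂ) g = (χ : G → ℂ) g
    simp
  mul_smul l l' χ := by
    apply Subtype.ext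
    funext g
    show (((l * l') g : ℂˣ) : ℂ) * (χ : G → ℂ) g = ((l g : ℂˣ) : ℂ) * (((l' g : ℂˣ) : ℂ) * (χ : G → ℂ) g)
    simp [mul_assoc]

theorem smul_apply (l : G →* ℂˣ) (χ : IrrCharacter G) (g : G) :
    ((l • χ : IrrCharacter G) : G → ℂ) g = ((l g : ℂˣ) : ℂ) * (χ : G → ℂ) g := rfl

/-- the real linear characters -/
def Lam (G : Type*) [Group G] : Subgroup (G →* ℂˣ) := (powMonoidHom 2 : (G →* ℂˣ) →* (G →* ℂˣ)).ker

theorem mem_Lam {l : G →* ℂˣ} : l ∈ Lam G ↔ ∀ g, l g * l g = 1 := by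
  unfold Lam
  rw [MonoidHom.mem_ker, powMonoidHom_apply]
  constructor
  · intro h g
    have := DFunLike.congr_fun h g
    simpa [pow_two] using this
  · intro h
    ext g
    have := h g
    simp [pow_two, this]

/-- the summand -/
noncomputable def Fterm (χ : IrrCharacter G) : ℂ :=
  (χ : G → ℂ) 1 * ((Nat.card G : ℂ)⁻¹ * ∑ x : G, (χ : G → ℂ) (x * x))

theorem Fterm_smul (l : Lam G) (χ : IrrCharacter G) : Fterm (l • χ) = Fterm χ := by
  unfold Fterm
  have h1 : ((l • χ : IrrCharacter G) : G → ℂ) = fun g => (((l : G →* ℂˣ) g : ℂˣ) : ℂ) * (χ : G → ℂ) g := rfl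
  rw [h1]
  simp only [map_one, Units.val_one, one_mul]
  congr 2
  apply Finset.sum_congr rfl
  intro x _
  rw [map_mul, (mem_Lam.1 l.2 x)]
  simp

theorem count_eq_sum [Fintype (IrrCharacter G)] :
    (Nat.card {x : G // x ^ 2 = 1} : ℂ) = ∑ χ : IrrCharacter G, Fterm χ := by
  classical
  have hcf : IsClassFunction G (fun g : G => if g = 1 then (1 : ℂ) else 0) := by
    intro g h
    have : h * g * h⁻¹ = 1 ↔ g = 1 := by
      constructor
      · intro e
        have : g = h⁻¹ * (h * g * h⁻¹) * h := by group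
        rw [this, e]; group
      · rintro rfl; group
    simp only [this]
  have h1 := avg_sq_eq_sum hcf
  have hG : (Nat.card G : ℂ) ≠ 0 := by
    exact_mod_cast Nat.card_pos.ne'
  have h2 : ∑ x : G, (if x * x = 1 then (1 : ℂ) else 0) = (Nat.card {x : G // x ^ 2 = 1} : ℂ) := by
    rw [Finset.sum_boole, Nat.card_eq_fintype_card, Fintype.card_subtype]
    simp only [pow_two]
  have h3 : ∀ χ : IrrCharacter G, classInner (fun g : G => if g = 1 then (1 : ℂ) else 0) χ
      = (Nat.card G : ℂ)⁻¹ * (χ : G → ℂ) 1 := by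
    intro χ
    unfold classInner
    congr 1
    rw [Finset.sum_eq_single 1]
    · obtain ⟨n, hn⟩ := irr_one_eq_natCast (IsIrrCharacter.isCharacter χ.2)
      simp [hn]
    · intro b _ hb
      simp [hb]
    · intro h; exact absurd (Finset.mem_univ _) h
  rw [h2] at h1
  simp only [h3] at h1
  have h4 : (Nat.card {x : G // x ^ 2 = 1} : ℂ) = (Nat.card G : ℂ) * ((Nat.card G : ℂ)⁻¹ * (Nat.card {x : G // x ^ 2 = 1} : ℂ)) := by
    field_simp
  rw [h4, h1, Finset.mul_sum]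
  apply Finset.sum_congr rfl
  intro χ _
  unfold Fterm
  field_simp

theorem sum_norm_sq (ψ : G → ℂ) :
    ((∑ g : G, ‖ψ g‖ ^ 2 : ℝ) : ℂ) = (Nat.card G : ℂ) * classInner ψ ψ := by
  have hG : (Nat.card G : ℂ) ≠ 0 := by
    exact_mod_cast Nat.card_pos.ne'
  unfold classInner
  rw [← mul_assoc, mul_inv_cancel₀ hG, one_mul]
  push_cast
  apply Finset.sum_congr rfl
  intro g _
  rw [Complex.mul_conj, Complex.normSq_eq_norm_sq]
  push_cast
  rfl

theorem stab_bound {ι : Type*} [Fintype ι] (l : ι → G →* ℂˣ) (hinj : Function.Injective l)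
    {χ : G → ℂ} (hχ : IsIrrCharacter G χ) (h : ∀ i g, ((l i g : ℂˣ) : ℂ) * χ g = χ g)
    {d : ℕ} (hd : χ 1 = d) : Fintype.card ι ≤ d ^ 2 := by
  classical
  set φ : G → ℂ := ∑ i : ι, (fun g => ((l i g : ℂˣ) : ℂ)) with hφ
  have hinj' : ∀ i j : ι, (fun g => ((l i g : ℂˣ) : ℂ)) = (fun g => ((l j g : ℂˣ) : ℂ)) ↔ i = j := by
    intro i j
    constructor
    · intro e
      apply hinj
      ext g
      exact congrFun e g
    · rintro rfl; rfl
  have h1 : classInner φ φ = (Fintype.card ι : ℂ) := by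
    rw [hφ, classInner_sum_left]
    simp only [classInner_sum_right]
    simp only [classInner_irr (isIrrCharacter_of_hom (l _)) (isIrrCharacter_of_hom (l _)), hinj']
    simp
  have h2 : ∀ g, χ g ≠ 0 → φ g = (Fintype.card ι : ℂ) := by
    intro g hg
    rw [hφ, Finset.sum_apply]
    have : ∀ i ∈ (Finset.univ : Finset ι), ((l i g : ℂˣ) : ℂ) = 1 := by
      intro i _
      exact mul_right_cancel₀ hg (by rw [h i g, one_mul])
    rw [Finset.sum_congr rfl this]
    simp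
  have h3 : classInner χ χ = 1 := (isIrrCharacter_iff_norm_one.mp hχ).2
  have hA : (∑ g : G, ‖χ g‖ ^ 2 : ℝ) = (Nat.card G : ℝ) := by
    have := sum_norm_sq χ
    rw [h3, mul_one] at this
    exact_mod_cast this
  have hB : (∑ g : G, ‖φ g‖ ^ 2 : ℝ) = (Nat.card G : ℝ) * (Fintype.card ι : ℝ) := by
    have := sum_norm_sq φ
    rw [h1] at this
    exact_mod_cast this
  have hC : ∀ g : G, (Fintype.card ι : ℝ) ^ 2 * ‖χ g‖ ^ 2 ≤ (d : ℝ) ^ 2 * ‖φ g‖ ^ 2 := by
    intro g
    by_cases hg : χ g = 0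
    · rw [hg]; simp; positivity
    · rw [h2 g hg]
      have h4 : ‖χ g‖ ≤ (d : ℝ) := by
        have := norm_le_degree (IsIrrCharacter.isCharacter hχ) g
        rw [hd] at this
        simpa using this
      have h5 : ‖χ g‖ ^ 2 ≤ (d : ℝ) ^ 2 := by
        apply pow_le_pow_left₀ (norm_nonneg _) h4
      have h6 : ‖((Fintype.card ι : ℕ) : ℂ)‖ = (Fintype.card ι : ℝ) := by simp
      rw [h6]
      nlinarith [sq_nonneg (Fintype.card ι : ℝ)]
  have hD : (Fintype.card ι : ℝ) ^ 2 * (Nat.card G : ℝ) ≤ (d : ℝ) ^ 2 * ((Nat.card G : ℝ) * (Fintype.card ι : ℝ)) := by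
    rw [← hB, ← hA, Finset.mul_sum, Finset.mul_sum]
    exact Finset.sum_le_sum (fun g _ => hC g)
  have hGpos : (0 : ℝ) < (Nat.card G : ℝ) := by exact_mod_cast Nat.card_pos
  by_cases hs : Fintype.card ι = 0
  · rw [hs]; exact Nat.zero_le _
  have hspos : (0 : ℝ) < (Fintype.card ι : ℝ) := by exact_mod_cast Nat.pos_of_ne_zero hs
  have hE : (Fintype.card ι : ℝ) ≤ (d : ℝ) ^ 2 := by
    have h7 : (Fintype.card ι : ℝ) * ((Nat.card G : ℝ) * (Fintype.card ι : ℝ)) ≤ (d : ℝ) ^ 2 * ((Nat.card G : ℝ) * (Fintype.card ι : ℝ)) := by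
      calc (Fintype.card ι : ℝ) * ((Nat.card G : ℝ) * (Fintype.card ι : ℝ)) = (Fintype.card ι : ℝ) ^ 2 * (Nat.card G : ℝ) := by ring
        _ ≤ _ := hD
    exact le_of_mul_le_mul_right h7 (mul_pos hGpos hspos)
  exact_mod_cast hE

instance finite_hom : Finite (G →* ℂˣ) := by
  apply Finite.of_injective (fun l : G →* ℂˣ => (⟨fun g => ((l g : ℂˣ) : ℂ), isIrrCharacter_of_hom l⟩ : IrrCharacter G))
  intro l l' e
  ext g
  exact congrFun (congrArg Subtype.val e) g

theorem isPGroup_Lam : IsPGroup 2 (Lam G) := by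
  intro l
  refine ⟨1, ?_⟩
  apply Subtype.ext
  have := l.2
  unfold Lam at this
  rw [MonoidHom.mem_ker, powMonoidHom_apply] at this
  simpa using this

theorem card_Lam_ge (hG : IsPGroup 2 G) : Nat.card (G ⧸ frattini G) ≤ Nat.card (Lam G) := by
  have : Fact (Nat.Prime 2) := ⟨Nat.prime_two⟩
  obtain ⟨hc, hp⟩ := Cfsg.Agent.S0012.result 2 hG
  letI : CommGroup (G ⧸ frattini G) :=
    { (inferInstance : Group (G ⧸ frattini G)) with
      mul_comm := by
        intro a b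
        induction a using QuotientGroup.induction_on with | H a => ?_
        induction b using QuotientGroup.induction_on with | H b => ?_
        rw [← QuotientGroup.mk_mul, ← QuotientGroup.mk_mul, QuotientGroup.eq]
        apply hc
        have : (a * b)⁻¹ * (b * a) = ⁅b⁻¹, a⁻¹⁆ := by
          rw [commutatorElement_def]; group
        rw [this]
        exact Subgroup.commutator_mem_commutator (Subgroup.mem_top _) (Subgroup.mem_top _) }
  haveI : NeZero ((Monoid.exponent (G ⧸ frattini G) : ℕ) : ℂ) :=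
    ⟨by exact_mod_cast Monoid.exponent_ne_zero_of_finite⟩
  rw [← CommGroup.card_monoidHom_of_hasEnoughRootsOfUnity (G ⧸ frattini G) ℂ]
  apply Nat.card_le_card_of_injective
    (fun φ : (G ⧸ frattini G) →* ℂˣ => (⟨φ.comp (QuotientGroup.mk' (frattini G)), by
      rw [mem_Lam]
      intro g
      rw [← map_mul, ← pow_two]
      have : (QuotientGroup.mk' (frattini G)) (g ^ 2) = 1 := by
        rw [QuotientGroup.mk'_apply, QuotientGroup.eq_one_iff]
        exact hp g
      rw [MonoidHom.comp_apply, this, map_one]⟩ : Lam G))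
  intro φ ψ e
  have e' := congrArg Subtype.val e
  exact (MonoidHom.cancel_right (QuotientGroup.mk'_surjective (frattini G))).1 e'

theorem term_dvd (hG : IsPGroup 2 G) (k : ℕ)
    (hgen : 2 ^ (2 * k + 1) ≤ Nat.card (G ⧸ frattini G)) (χ : IrrCharacter G) :
    ∃ z : ℤ, (Nat.card (MulAction.orbit (Lam G) χ) : ℂ) * Fterm χ = ((2 ^ (k + 1) : ℕ) : ℂ) * z := by
  classical
  have : Fact (Nat.Prime 2) := ⟨Nat.prime_two⟩
  obtain ⟨n, hn⟩ := IsPGroup.iff_card.1 hG
  obtain ⟨D, hD⟩ := IsPGroup.iff_card.1 (isPGroup_Lam (G := G))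
  obtain ⟨j, hj⟩ := IsPGroup.iff_card.1
    ((isPGroup_Lam (G := G)).to_subgroup (MulAction.stabilizer (Lam G) χ))
  have hDk : 2 * k + 1 ≤ D := by
    have h1 := hgen.trans (card_Lam_ge hG)
    rw [hD] at h1
    exact (Nat.pow_le_pow_iff_right (by norm_num)).1 h1
  have hdeg := charDegree_dvd_card χ.2
  rw [hn] at hdeg
  obtain ⟨a, -, ha⟩ := (Nat.dvd_prime_pow Nat.prime_two).1 hdeg
  have hd : (χ : G → ℂ) 1 = ((2 ^ a : ℕ) : ℂ) := by
    rw [← ha]; exact (charDegree_cast (IsIrrCharacter.isCharacter χ.2)).symm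
  have := Fintype.ofFinite (MulAction.stabilizer (Lam G) χ)
  have hst : Fintype.card (MulAction.stabilizer (Lam G) χ) ≤ (2 ^ a) ^ 2 := by
    apply stab_bound (fun s : MulAction.stabilizer (Lam G) χ => ((s : Lam G) : G →* ℂˣ)) _ χ.2 _ hd
    · intro s t e
      exact Subtype.ext (Subtype.ext e)
    · intro s g
      have h1 : (s : Lam G) • χ = χ := s.2
      have h2 := congrFun (congrArg Subtype.val h1) g
      exact h2
  rw [← Nat.card_eq_fintype_card, hj, ← pow_mul] at hst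
  have hj2 : j ≤ a * 2 := (Nat.pow_le_pow_iff_right (by norm_num)).1 hst
  have horb : Nat.card (MulAction.orbit (Lam G) χ) * 2 ^ j = 2 ^ D := by
    rw [← hj, ← hD, Nat.card_coe_set_eq, ← MulAction.index_stabilizer, mul_comm]
    exact Subgroup.card_mul_index _
  have hjD : j ≤ D := by
    have : 2 ^ j ∣ 2 ^ D := ⟨_, by rw [← horb, mul_comm]⟩
    exact (Nat.pow_dvd_pow_iff_le_right (by norm_num)).1 this
  have horb' : Nat.card (MulAction.orbit (Lam G) χ) = 2 ^ (D - j) := by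
    have h1 : 2 ^ D = 2 ^ (D - j) * 2 ^ j := by rw [← pow_add]; congr 1; omega
    rw [h1] at horb
    exact Nat.eq_of_mul_eq_mul_right (by positivity) horb
  have hexp : D - j + a = (k + 1) + (D - j + a - (k + 1)) := by omega
  have hprod : (Nat.card (MulAction.orbit (Lam G) χ) : ℂ) * (χ : G → ℂ) 1
      = ((2 ^ (k + 1) : ℕ) : ℂ) * ((2 ^ (D - j + a - (k + 1)) : ℕ) : ℂ) := by
    rw [horb', hd]
    have : 2 ^ (D - j) * 2 ^ a = 2 ^ (k + 1) * 2 ^ (D - j + a - (k + 1)) := by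
      rw [← pow_add, ← pow_add, ← hexp]
    exact_mod_cast this
  unfold Fterm
  rw [← mul_assoc, hprod]
  rcases (fs_trichotomy χ.2).1 with h0 | h0 | h0
  · exact ⟨0, by rw [h0]; simp⟩
  · exact ⟨(2 ^ (D - j + a - (k + 1)) : ℕ), by rw [h0]; push_cast; ring⟩
  · exact ⟨-((2 ^ (D - j + a - (k + 1)) : ℕ) : ℤ), by rw [h0]; push_cast; ring⟩

end act

theorem main {G : Type*} [Group G] [Finite G] (hG : IsPGroup 2 G) (k : ℕ)
    (hgen : 2 ^ (2 * k + 1) ≤ Nat.card (G ⧸ frattini G)) :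
    2 ^ (k + 1) ∣ Nat.card {x : G // x ^ 2 = 1} := by
  classical
  have := Fintype.ofFinite G
  have := Fintype.ofFinite (IrrCharacter G)
  obtain ⟨z, hz⟩ := orbit_sum_dvd (Λ := Lam G) (X := IrrCharacter G) Fterm Fterm_smul (2 ^ (k + 1))
    (term_dvd hG k hgen)
  rw [← count_eq_sum] at hz
  have hz' : ((Nat.card {x : G // x ^ 2 = 1} : ℕ) : ℤ) = ((2 ^ (k + 1) : ℕ) : ℤ) * z := by
    exact_mod_cast hz
  have : ((2 ^ (k + 1) : ℕ) : ℤ) ∣ ((Nat.card {x : G // x ^ 2 = 1} : ℕ) : ℤ) := ⟨z, hz'⟩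
  exact_mod_cast this

end Cfsg.Agent.Lib.Helper6.SqRoots
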