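import Mathlib
import Cfsg.Agent.Lib.Helper1.Misc
import Cfsg.Agent.Lib.Helper2.Basic

set_option autoImplicit false
set_option maxHeartbeats 400000
set_option linter.unusedSectionVars false

/-! Products over invariant subsets of a module for a `p`-group: only the fixed points matter. -/

namespace Cfsg.Agent.Lib.Helper6.WC1

open Cfsg.Agent.Lib.Helper1 Cfsg.Agent.Lib.Helper2

theorem exists_pow_coset {J : Type*} [Group J] [Finite J] {p : ℕ} [hp : Fact p.Prime]
    (J₁ : Subgroup J) [hn : J₁.Normal] (hidx : J₁.index = p) {a : J} (ha : a ∉ J₁) (j : J) :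
    ∃ i < p, (a ^ i)⁻¹ * j ∈ J₁ := by
  classical
  have hc : Nat.card (J ⧸ J₁) = p := hidx
  have ha1 : (QuotientGroup.mk a : J ⧸ J₁) ≠ 1 := by
    rwa [Ne, QuotientGroup.eq_one_iff]
  have ho : orderOf (QuotientGroup.mk a : J ⧸ J₁) = p := by
    have h1 : orderOf (QuotientGroup.mk a : J ⧸ J₁) ∣ p := hc ▸ orderOf_dvd_natCard _
    rcases (Nat.dvd_prime hp.out).mp h1 with h | h
    · exact absurd (orderOf_eq_one_iff.mp h) ha1
    · exact h
  have hmem : (QuotientGroup.mk j : J ⧸ J₁) ∈ Subgroup.zpowers (QuotientGroup.mk a : J ⧸ J₁) :=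
    mem_zpowers_of_prime_card hc ha1
  rw [← mem_powers_iff_mem_zpowers, mem_powers_iff_mem_range_orderOf, ho] at hmem
  obtain ⟨i, hi, hij⟩ := Finset.mem_image.mp hmem
  refine ⟨i, Finset.mem_range.mp hi, ?_⟩
  rw [← QuotientGroup.eq, QuotientGroup.mk_pow]
  exact hij

theorem pow_coset_inj {J : Type*} [Group J] [Finite J] {p : ℕ} [hp : Fact p.Prime]
    (J₁ : Subgroup J) [hn : J₁.Normal] (hidx : J₁.index = p) {a : J} (ha : a ∉ J₁) {i i' : ℕ}
    (hi : i < p) (hi' : i' < p) (h : (a ^ i)⁻¹ * a ^ i' ∈ J₁) : i = i' := by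
  have hc : Nat.card (J ⧸ J₁) = p := hidx
  have ha1 : (QuotientGroup.mk a : J ⧸ J₁) ≠ 1 := by
    rwa [Ne, QuotientGroup.eq_one_iff]
  have ho : orderOf (QuotientGroup.mk a : J ⧸ J₁) = p := by
    have h1 : orderOf (QuotientGroup.mk a : J ⧸ J₁) ∣ p := hc ▸ orderOf_dvd_natCard _
    rcases (Nat.dvd_prime hp.out).mp h1 with h | h
    · exact absurd (orderOf_eq_one_iff.mp h) ha1
    · exact h
  rw [← QuotientGroup.eq, QuotientGroup.mk_pow, QuotientGroup.mk_pow] at h
  exact pow_injOn_Iio_orderOf (by rw [ho]; exact hi) (by rw [ho]; exact hi') h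

section
variable {J M M' : Type*} [Group J] [Fintype J] [CommGroup M] [DecidableEq M]
  [MulDistribMulAction J M] [CommGroup M']

theorem orbit_prod {p : ℕ} [hp : Fact p.Prime] (hJ : IsPGroup p J) (θ : M →* M')
    (H : ∀ J₁ : Subgroup J, J₁.Normal → J₁.index = p → ∀ u : M, (∀ k ∈ J₁, k • u = u) →
       ∃ a : J, a ∉ J₁ ∧ θ (∏ i ∈ Finset.range p, a ^ i • u) = 1)
    (v : M) (hv : ∃ j : J, j • v ≠ v) :
    θ (∏ w ∈ Finset.univ.image (fun j : J => j • v), w) = 1 ∧
      p ∣ (Finset.univ.image (fun j : J => j • v)).card := by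
  classical
  have hne : MulAction.stabilizer J v ≠ ⊤ := by
    intro h
    obtain ⟨j, hj⟩ := hv
    apply hj
    have : j ∈ MulAction.stabilizer J v := h ▸ Subgroup.mem_top j
    exact this
  obtain ⟨J₁, hco, hle⟩ := (eq_top_or_exists_le_coatom _).resolve_left hne
  obtain ⟨hn, hidx⟩ := coatom_of_pgroup hJ J₁ hco
  set O₁ : Finset M := (Finset.univ.filter (fun k : J => k ∈ J₁)).image (fun k => k • v) with hO₁
  have memO₁ : ∀ w, w ∈ O₁ ↔ ∃ k ∈ J₁, k • v = w := by
    intro w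
    simp [hO₁]
  set u : M := ∏ w ∈ O₁, w with hu
  have hsm : ∀ j : J, j • u = ∏ w ∈ O₁.image (fun w => j • w), w := by
    intro j
    rw [hu, Finset.smul_prod']
    exact (Finset.prod_image (s := O₁) (g := fun w => j • w) (f := fun w => w)
      (fun x _ y _ hxy => MulAction.injective j hxy)).symm
  have hfix : ∀ k ∈ J₁, k • u = u := by
    intro k hk
    rw [hsm k]
    congr 1
    ext w
    rw [Finset.mem_image]
    constructor
    · rintro ⟨w', hw', rfl⟩
      obtain ⟨k', hk', rfl⟩ := (memO₁ _).mp hw'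
      exact (memO₁ _).mpr ⟨k * k', J₁.mul_mem hk hk', mul_smul _ _ _⟩
    · intro hw
      obtain ⟨k', hk', rfl⟩ := (memO₁ _).mp hw
      refine ⟨(k⁻¹ * k') • v, (memO₁ _).mpr ⟨_, J₁.mul_mem (J₁.inv_mem hk) hk', rfl⟩, ?_⟩
      rw [← mul_smul, mul_inv_cancel_left]
  obtain ⟨a, ha, hθ⟩ := H J₁ hn hidx u hfix
  have hunion : Finset.univ.image (fun j : J => j • v)
      = (Finset.range p).biUnion (fun i => O₁.image (fun w => a ^ i • w)) := by
    ext w
    simp only [Finset.mem_image, Finset.mem_univ, true_and, Finset.mem_biUnion, Finset.mem_range]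
    constructor
    · rintro ⟨j, rfl⟩
      obtain ⟨i, hi, hij⟩ := exists_pow_coset J₁ hidx ha j
      refine ⟨i, hi, ((a ^ i)⁻¹ * j) • v, (memO₁ _).mpr ⟨_, hij, rfl⟩, ?_⟩
      rw [← mul_smul, mul_inv_cancel_left]
    · rintro ⟨i, -, w', hw', rfl⟩
      obtain ⟨k', -, rfl⟩ := (memO₁ _).mp hw'
      exact ⟨a ^ i * k', mul_smul _ _ _⟩
  have hdisj : Set.PairwiseDisjoint (↑(Finset.range p) : Set ℕ)
      (fun i => O₁.image (fun w => a ^ i • w)) := by
    intro i hi i' hi' hne
    rw [Function.onFun, Finset.disjoint_left]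
    intro w hw hw'
    apply hne
    obtain ⟨w1, hw1, rfl⟩ := Finset.mem_image.mp hw
    obtain ⟨w2, hw2, h12⟩ := Finset.mem_image.mp hw'
    obtain ⟨k1, hk1, rfl⟩ := (memO₁ _).mp hw1
    obtain ⟨k2, hk2, rfl⟩ := (memO₁ _).mp hw2
    have h3 : ((a ^ i * k1)⁻¹ * (a ^ i' * k2)) • v = v := by
      rw [mul_smul, mul_smul (a ^ i') k2 v, h12, ← mul_smul, ← mul_smul]
      simp
    have h4 : (a ^ i * k1)⁻¹ * (a ^ i' * k2) ∈ J₁ := hle h3
    have h5 : (a ^ i)⁻¹ * a ^ i' ∈ J₁ := by
      have h6 := J₁.mul_mem (J₁.mul_mem hk1 h4) (J₁.inv_mem hk2)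
      have h7 : k1 * ((a ^ i * k1)⁻¹ * (a ^ i' * k2)) * k2⁻¹ = (a ^ i)⁻¹ * a ^ i' := by group
      rwa [h7] at h6
    exact pow_coset_inj J₁ hidx ha (Finset.mem_range.mp hi) (Finset.mem_range.mp hi') h5
  constructor
  · rw [hunion, Finset.prod_biUnion hdisj]
    have : ∏ i ∈ Finset.range p, ∏ w ∈ O₁.image (fun w => a ^ i • w), w
        = ∏ i ∈ Finset.range p, a ^ i • u := by
      apply Finset.prod_congr rfl
      intro i _
      rw [hsm]
    rw [this, hθ]
  · rw [hunion, Finset.card_biUnion hdisj]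
    have : ∀ i ∈ Finset.range p, (O₁.image (fun w => a ^ i • w)).card = O₁.card := by
      intro i _
      exact Finset.card_image_of_injective _ (MulAction.injective _)
    rw [Finset.sum_congr rfl this, Finset.sum_const, Finset.card_range, smul_eq_mul]
    exact dvd_mul_right _ _

theorem prod_fixed {p : ℕ} [hp : Fact p.Prime] (hJ : IsPGroup p J) (θ : M →* M')
    (H : ∀ J₁ : Subgroup J, J₁.Normal → J₁.index = p → ∀ u : M, (∀ k ∈ J₁, k • u = u) →
       ∃ a : J, a ∉ J₁ ∧ θ (∏ i ∈ Finset.range p, a ^ i • u) = 1) :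
    ∀ (n : ℕ) (Y : Finset M), Y.card = n → (∀ j : J, ∀ v ∈ Y, j • v ∈ Y) →
      θ (∏ v ∈ Y, v) = θ (∏ v ∈ Y.filter (fun v => ∀ j : J, j • v = v), v) ∧
      Y.card ≡ (Y.filter (fun v => ∀ j : J, j • v = v)).card [MOD p] := by
  intro n
  induction n using Nat.strong_induction_on with
  | _ n ih =>
    intro Y hYn hY
    by_cases hall : ∀ v ∈ Y, ∀ j : J, j • v = v
    · have : Y.filter (fun v => ∀ j : J, j • v = v) = Y := Finset.filter_true_of_mem hall
      rw [this]
      exact ⟨rfl, Nat.ModEq.refl _⟩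
    · push Not at hall
      obtain ⟨v, hvY, hv⟩ := hall
      set O := Finset.univ.image (fun j : J => j • v) with hO
      have memO : ∀ w, w ∈ O ↔ ∃ j : J, j • v = w := by
        intro w; simp [hO]
      have hOY : O ⊆ Y := by
        intro w hw
        obtain ⟨j, rfl⟩ := (memO w).mp hw
        exact hY j v hvY
      obtain ⟨h1, h2⟩ := orbit_prod hJ θ H v hv
      have hvO : v ∈ O := (memO v).mpr ⟨1, one_smul _ _⟩
      have hlt : (Y \ O).card < n := by
        rw [← hYn]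
        apply Finset.card_lt_card
        refine ⟨Finset.sdiff_subset, fun h => ?_⟩
        exact (Finset.mem_sdiff.mp (h hvY)).2 hvO
      have hinv : ∀ j : J, ∀ w ∈ Y \ O, j • w ∈ Y \ O := by
        intro j w hw
        obtain ⟨hwY, hwO⟩ := Finset.mem_sdiff.mp hw
        refine Finset.mem_sdiff.mpr ⟨hY j w hwY, fun h => hwO ?_⟩
        obtain ⟨j', hj'⟩ := (memO _).mp h
        refine (memO w).mpr ⟨j⁻¹ * j', ?_⟩
        rw [mul_smul, hj', inv_smul_smul]
      obtain ⟨h3, h4⟩ := ih _ hlt (Y \ O) rfl hinv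
      have hfil : (Y \ O).filter (fun v => ∀ j : J, j • v = v)
          = Y.filter (fun v => ∀ j : J, j • v = v) := by
        ext w
        simp only [Finset.mem_filter, Finset.mem_sdiff]
        constructor
        · rintro ⟨⟨h5, -⟩, h6⟩; exact ⟨h5, h6⟩
        · rintro ⟨h5, h6⟩
          refine ⟨⟨h5, fun h => ?_⟩, h6⟩
          obtain ⟨j', hj'⟩ := (memO _).mp h
          obtain ⟨j, hj⟩ := hv
          apply hj
          have h7 : v = j'⁻¹ • w := by rw [← hj', inv_smul_smul]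
          rw [h7, h6, h6]
      rw [hfil] at h3 h4
      constructor
      · rw [← Finset.prod_sdiff hOY, map_mul, h1, mul_one, h3]
      · have h5 : Y.card = (Y \ O).card + O.card := by
          rw [Finset.card_sdiff_add_card_eq_card hOY]
        rw [h5]
        calc (Y \ O).card + O.card ≡ (Y \ O).card + 0 [MOD p] :=
              Nat.ModEq.add_left _ ((Nat.modEq_zero_iff_dvd).mpr h2)
          _ ≡ _ [MOD p] := by simpa using h4

end

end Cfsg.Agent.Lib.Helper6.WC1
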