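import Mathlib
import Cfsg.Agent.Lib.Helper6.Off
import Cfsg.Agent.Lib.Helper3.S4Rec
import Cfsg.Agent.Lib.Helper3.BaerSuzuki

set_option autoImplicit false
set_option maxHeartbeats 400000
set_option maxRecDepth 100000
set_option linter.unusedSectionVars false

/-! A normal four-group on which the full `S₃` is induced forces `S₄` to be involved. -/

namespace Cfsg.Agent.Lib.Helper6.WC2

open Cfsg.Agent.Lib.Helper6.Basic Cfsg.Agent.Lib.Helper6.Subn Cfsg.Agent.Lib.Helper6.Quasi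
  Cfsg.Agent.Lib.Helper6.Rad Cfsg.Agent.Lib.Helper6.PAct Cfsg.Agent.Lib.Helper6.Off

theorem D1 : ∀ (i : Fin 4) (σ : Equiv.Perm (Fin 4)), σ i = i → σ ≠ 1 → σ * σ = 1 →
    Equiv.Perm.sign σ = -1 := by decide

theorem D2 : ∀ (i : Fin 4) (σ : Equiv.Perm (Fin 4)), σ i = i → σ ^ 6 = 1 := by decide

theorem D3 : ∀ (i : Fin 4) (σ : Equiv.Perm (Fin 4)), σ i = i → Equiv.Perm.sign σ = -1 →
    σ * σ = 1 := by decide

theorem D4 : ∀ (i : Fin 4) (σ : Equiv.Perm (Fin 4)), σ i = i → σ ≠ 1 → σ ^ 3 = 1 →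
    ∀ j, σ j = j → j = i := by decide

theorem units_eq_one_of_pow {u : ℤˣ} {k : ℕ} (hk : Odd k) (h : u ^ k = 1) : u = 1 := by
  rcases Int.units_eq_one_or u with h1 | h1
  · exact h1
  · rw [h1, hk.neg_one_pow] at h
    exact absurd h (by decide)

theorem four_S4 {X : Type*} [Group X] [Finite X] (W : Subgroup X) [hW : W.Normal]
    (h4 : Nat.card W = 4) {a y : X} {n : ℕ} (hn : Odd n) (ha : a ∉ Cz W) (ha2 : a * a ∈ Cz W)
    (hy : y ∉ Cz W) (hyn : y ^ n ∈ Cz W) : Cfsg.Involves (Equiv.Perm (Fin 4)) X := by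
  classical
  have : Fact (Nat.Prime 2) := ⟨Nat.prime_two⟩
  have : Fact (Nat.Prime 3) := ⟨Nat.prime_three⟩
  let e : ↥W ≃ Fin 4 := Finite.equivFinOfCardEq h4
  let ψ : X →* Equiv.Perm (Fin 4) :=
    (e.permCongrHom).toMonoidHom.comp ((MulAut.toPerm ↥W).comp (MulAut.conjNormal))
  have hψ : ∀ (x : X) (w : ↥W), ψ x (e w) = e (MulAut.conjNormal x w) := by
    intro x w
    show e ((MulAut.conjNormal x) (e.symm (e w))) = _
    rw [Equiv.symm_apply_apply]
  have hfix0 : ∀ x, ψ x (e 1) = e 1 := by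
    intro x
    rw [hψ, map_one]
  have hker : ∀ x, ψ x = 1 ↔ x ∈ Cz W := by
    intro x
    rw [Subgroup.mem_centralizer_iff]
    constructor
    · intro h w hw
      have h1 := hψ x ⟨w, hw⟩
      rw [h, Equiv.Perm.one_apply] at h1
      have h2 := congrArg Subtype.val (e.injective h1)
      rw [MulAut.conjNormal_apply] at h2
      have h3 := congrArg (fun z => z * x) h2
      simpa [mul_assoc] using h3
    · intro h
      ext i
      obtain ⟨w, rfl⟩ := e.surjective i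
      rw [hψ, Equiv.Perm.one_apply]
      congr 2
      apply Subtype.ext
      rw [MulAut.conjNormal_apply, ← h w.1 w.2]
      group
  -- the element of order three
  have hy3 : ψ y ^ 3 = 1 := by
    have h1 : ψ y ^ n = 1 := by rw [← map_pow]; exact (hker _).mpr hyn
    have h2 : ψ y ^ 6 = 1 := D2 _ _ (hfix0 y)
    have h3 : ψ y ^ (Nat.gcd n 6) = 1 := by
      rw [← orderOf_dvd_iff_pow_eq_one] at h1 h2 ⊢
      exact Nat.dvd_gcd h1 h2
    have h4 : Nat.gcd n 6 ∣ 3 := by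
      have h5 : Nat.gcd n 6 ∣ 6 := Nat.gcd_dvd_right _ _
      have h6 : Nat.Coprime (Nat.gcd n 6) 2 := by
        apply Nat.Coprime.coprime_dvd_left (Nat.gcd_dvd_left n 6)
        exact Nat.coprime_two_right.mpr hn
      exact h6.dvd_of_dvd_mul_left (by simpa using h5 : Nat.gcd n 6 ∣ 2 * 3)
    obtain ⟨c, hc⟩ := h4
    rw [hc, pow_mul, h3, one_pow]
  have hy1 : ψ y ≠ 1 := fun h => hy ((hker y).mp h)
  have hoy : orderOf y ≠ 0 := (orderOf_pos y).ne'
  set m := ordCompl[3] (orderOf y) with hm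
  set y₃ := y ^ m with hy₃
  have hm3 : ¬ 3 ∣ m := Nat.not_dvd_ordCompl Nat.prime_three hoy
  have hy₃1 : ψ y₃ ≠ 1 := by
    intro h
    rw [hy₃, map_pow] at h
    have h1 : orderOf (ψ y) = 3 := orderOf_eq_prime hy3 hy1
    have h2 := orderOf_dvd_of_pow_eq_one h
    rw [h1] at h2
    exact hm3 h2
  have hy₃3 : ψ y₃ ^ 3 = 1 := by
    rw [hy₃, map_pow, ← pow_mul, mul_comm, pow_mul, hy3, one_pow]
  have hy₃p : IsPGroup 3 ↥(Subgroup.zpowers y₃) := by
    have h1 : y₃ ^ (3 ^ (orderOf y).factorization 3) = 1 := by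
      rw [hy₃, ← pow_mul, mul_comm, Nat.ordProj_mul_ordCompl_eq_self]
      exact pow_orderOf_eq_one y
    rintro ⟨x, hx⟩
    obtain ⟨j, rfl⟩ := Subgroup.mem_zpowers_iff.mp hx
    refine ⟨(orderOf y).factorization 3, Subtype.ext ?_⟩
    show (y₃ ^ j) ^ (3 ^ (orderOf y).factorization 3) = 1
    rw [← zpow_natCast, ← zpow_mul, mul_comm, zpow_mul, zpow_natCast, h1, one_zpow]
  obtain ⟨Q, hQ⟩ := hy₃p.exists_le_sylow
  have hy₃Q : y₃ ∈ (Q : Subgroup X) := hQ (Subgroup.mem_zpowers y₃)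
  set X₁ : Subgroup X := (Equiv.Perm.sign.comp ψ).ker with hX₁
  have hQX : (Q : Subgroup X) ≤ X₁ := by
    intro q hq
    rw [hX₁, MonoidHom.mem_ker, MonoidHom.comp_apply]
    obtain ⟨k, hk⟩ := Q.isPGroup' ⟨q, hq⟩
    have hk' : q ^ 3 ^ k = 1 := congrArg Subtype.val hk
    apply units_eq_one_of_pow (k := 3 ^ k) (Odd.pow (by decide))
    rw [← map_pow, ← map_pow, hk', map_one, map_one]
  have hfr := Sylow.normalizer_sup_eq_top' Q hQX
  set H : Subgroup X := Nz (Q : Subgroup X) with hH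
  have haX : a ∉ X₁ := by
    intro h
    rw [hX₁, MonoidHom.mem_ker, MonoidHom.comp_apply] at h
    have h1 := D1 _ _ (hfix0 a) (fun h => ha ((hker a).mp h))
      (by rw [← map_mul]; exact (hker _).mpr ha2)
    rw [h1] at h
    exact absurd h (by decide)
  obtain ⟨e', he'H, he'X⟩ : ∃ e' ∈ H, e' ∉ X₁ := by
    by_contra hcon
    push Not at hcon
    have h1 : H ⊔ X₁ = X₁ := sup_eq_right.mpr hcon
    have h2 : X₁ = ⊤ := by rw [← h1]; exact hfr
    exact haX (h2 ▸ Subgroup.mem_top a)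
  have hs : Equiv.Perm.sign (ψ e') = -1 := by
    rcases Int.units_eq_one_or (Equiv.Perm.sign (ψ e')) with h | h
    · exact absurd (by rw [hX₁, MonoidHom.mem_ker, MonoidHom.comp_apply]; exact h) he'X
    · exact h
  have hCn : (Cz W).Normal := Subgroup.normal_centralizer
  have hHC : H ≤ Nz (Cz W) := by
    have : Nz (Cz W) = ⊤ := Subgroup.normalizer_eq_top _
    rw [this]; exact le_top
  have h2 : 2 ∣ (Cz W).relIndex H := by
    apply prime_dvd_relIndex (Cz W) H hHC he'H 2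
    · rw [pow_two, ← hker, map_mul]
      exact D3 _ _ (hfix0 e') hs
    · intro h
      rw [← hker] at h
      rw [h, map_one] at hs
      exact absurd hs (by decide)
  have h3 : 3 ∣ (Cz W).relIndex H := by
    apply prime_dvd_relIndex (Cz W) H hHC (Subgroup.le_normalizer hy₃Q) 3
    · rw [← hker, map_pow]; exact hy₃3
    · intro h
      exact hy₃1 ((hker _).mpr h)
  have hWp : IsPGroup 2 ↥W := IsPGroup.of_card (n := 2) (by rw [h4]; norm_num)
  have hWQ : Disjoint W (Q : Subgroup X) := IsPGroup.disjoint_of_ne 2 3 (by norm_num) _ _ hWp Q.isPGroup'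
  have hinf : W ⊓ H = ⊥ := by
    rw [eq_bot_iff]
    intro w hw
    obtain ⟨hwW, hwH⟩ := Subgroup.mem_inf.mp hw
    rw [Subgroup.mem_bot]
    have h5 : w * y₃ * w⁻¹ * y₃⁻¹ ∈ (Q : Subgroup X) :=
      (Q : Subgroup X).mul_mem (conj_mem_of_mem_Nz hwH hy₃Q) ((Q : Subgroup X).inv_mem hy₃Q)
    have h6 : w * y₃ * w⁻¹ * y₃⁻¹ ∈ W := by
      have := W.mul_mem hwW (hW.conj_mem _ (W.inv_mem hwW) y₃)
      simpa [mul_assoc] using this
    have h7 : w * y₃ * w⁻¹ * y₃⁻¹ = 1 := by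
      have := (Subgroup.disjoint_def.mp hWQ) h6 h5
      exact this
    have h8 : y₃ * w * y₃⁻¹ = w := by
      have h9 : w * y₃ = y₃ * w := by
        have := congrArg (fun z => z * y₃ * w) h7
        simpa [mul_assoc] using this
      rw [← h9]; group
    have h9 : ψ y₃ (e ⟨w, hwW⟩) = e ⟨w, hwW⟩ := by
      rw [hψ]
      congr 1
      apply Subtype.ext
      rw [MulAut.conjNormal_apply]
      exact h8
    have h10 := D4 _ _ (hfix0 y₃) hy₃1 hy₃3 _ h9
    exact congrArg Subtype.val (e.injective h10)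
  have hHW : H ≤ Nz W := by
    have : Nz W = ⊤ := Subgroup.normalizer_eq_top _
    rw [this]; exact le_top
  have h6 : 6 ∣ (Cz W).relIndex H :=
    Nat.Coprime.mul_dvd_of_dvd_of_dvd (by norm_num : Nat.Coprime 2 3) h2 h3
  obtain ⟨f, hf⟩ := surj_perm_of_config W H hHW hinf 4 h4 (by
    obtain ⟨c, hc⟩ := h6
    rw [hc]
    exact ⟨c, by simp [Nat.factorial]; ring⟩)
  exact involves_iff.mpr ⟨_, f, hf⟩

theorem four_S4' {X : Type*} [Group X] [Finite X] (U : Subgroup X) (h4 : Nat.card U = 4) {a y : X}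
    (haN : a ∈ Nz U) (hyN : y ∈ Nz U) {n : ℕ} (hn : Odd n) (ha : a ∉ Cz U) (ha2 : a * a ∈ Cz U)
    (hy : y ∉ Cz U) (hyn : y ^ n ∈ Cz U) : Cfsg.Involves (Equiv.Perm (Fin 4)) X := by
  apply involves_of_subgroup (Nz U)
  have hn' : (U.subgroupOf (Nz U)).Normal := Subgroup.normal_in_normalizer
  have hc : Nat.card (U.subgroupOf (Nz U)) = 4 := by
    rw [← h4]; exact Nat.card_congr (Subgroup.subgroupOfEquivOfLe Subgroup.le_normalizer).toEquiv
  have key : ∀ g : ↥(Nz U), g ∈ Cz (U.subgroupOf (Nz U)) ↔ (g : X) ∈ Cz U := by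
    intro g
    rw [Subgroup.mem_centralizer_iff, Subgroup.mem_centralizer_iff]
    constructor
    · intro h u hu
      exact congrArg Subtype.val (h ⟨u, Subgroup.le_normalizer hu⟩ hu)
    · intro h w hw
      exact Subtype.ext (h w.1 hw)
  exact four_S4 (U.subgroupOf (Nz U)) hc (a := ⟨a, haN⟩) (y := ⟨y, hyN⟩) hn
    (fun h => ha ((key _).mp h)) ((key _).mpr ha2) (fun h => hy ((key _).mp h)) ((key _).mpr hyn)

/-- the commutators of a "transvection" -/
theorem transvection_comm {X : Type*} [Group X] [Finite X] (V : Subgroup X) [hV : V.Normal]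
    (hVc : ∀ a ∈ V, ∀ b ∈ V, a * b = b * a) {a : X} (ha : a ∉ Cz V)
    (hidx : Nat.card V ≤ 2 * Nat.card ↥(V ⊓ Subgroup.centralizer {a})) :
    ∃ w ∈ V, w ≠ 1 ∧ w * w = 1 ∧ a * w * a⁻¹ = w ∧ ∀ v ∈ V, a * v * a⁻¹ * v⁻¹ = 1 ∨ a * v * a⁻¹ * v⁻¹ = w := by
  set K := V ⊓ Subgroup.centralizer {a} with hK
  have hKV : K ≤ V := inf_le_left
  obtain ⟨v0, hv0, hv0a⟩ : ∃ v0 ∈ V, v0 * a ≠ a * v0 := by
    by_contra hcon
    push Not at hcon
    exact ha (Subgroup.mem_centralizer_iff.mpr hcon)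
  have memK : ∀ v, v ∈ K ↔ v ∈ V ∧ a * v = v * a := by
    intro v
    rw [hK, Subgroup.mem_inf, Subgroup.mem_centralizer_singleton_iff]
    exact and_congr_right (fun _ => eq_comm)
  have hv0K : v0 ∉ K := fun h => hv0a ((memK v0).mp h).2.symm
  have hr : (K.subgroupOf V).index = 2 := by
    have h1 : K.relIndex V * Nat.card K = Nat.card V := by
      rw [mul_comm]; exact Cfsg.Agent.Lib.Helper6.Card.card_mul_relIndex hKV
    have h2 : K.relIndex V ≠ 1 := by
      intro h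
      exact hv0K (Subgroup.relIndex_eq_one.mp h hv0)
    have h3 : K.relIndex V ≠ 0 := by
      intro h
      rw [h, zero_mul] at h1
      exact (Nat.card_pos (α := ↥V)).ne h1
    have h4 : 0 < Nat.card K := Nat.card_pos
    have h5 : K.relIndex V ≤ 2 := by
      have : K.relIndex V * Nat.card K ≤ 2 * Nat.card K := by rw [h1]; exact hidx
      exact Nat.le_of_mul_le_mul_right this h4
    show K.relIndex V = 2
    omega
  have hτV : ∀ v ∈ V, a * v * a⁻¹ * v⁻¹ ∈ V := fun v hv =>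
    V.mul_mem (hV.conj_mem v hv a) (V.inv_mem hv)
  set w := a * v0 * a⁻¹ * v0⁻¹ with hw
  have hw1 : w ≠ 1 := by
    intro h
    apply hv0a
    have := congrArg (fun z => z * v0 * a) h
    simpa [hw, mul_assoc] using this.symm
  have hA : ∀ v ∈ V, a * v * a⁻¹ * v⁻¹ = 1 ∨ a * v * a⁻¹ * v⁻¹ = w := by
    intro v hv
    by_cases hvK : v ∈ K
    · left
      rw [((memK v).mp hvK).2]; group
    · right
      have h1 : (⟨v0⁻¹, V.inv_mem hv0⟩ * ⟨v, hv⟩ : ↥V) ∈ K.subgroupOf V := by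
        rw [Subgroup.mul_mem_iff_of_index_two hr]
        constructor
        · intro h
          exact absurd (K.inv_mem_iff.mp (Subgroup.mem_subgroupOf.mp h)) hv0K
        · intro h
          exact absurd (Subgroup.mem_subgroupOf.mp h) hvK
      have h2 : v0⁻¹ * v ∈ K := Subgroup.mem_subgroupOf.mp h1
      have h3 := ((memK _).mp h2).2
      have h4 : a * v = a * v0 * (v0⁻¹ * v) := by group
      have h5 : a * v = a * v0 * a⁻¹ * (v0⁻¹ * v) * a := by
        calc a * v = a * v0 * a⁻¹ * (a * (v0⁻¹ * v)) := by group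
          _ = a * v0 * a⁻¹ * ((v0⁻¹ * v) * a) := by rw [h3]
          _ = _ := by group
      rw [h5, hw]; group
  have hwV : w ∈ V := hτV v0 hv0
  have hw2 : w * w = 1 := by
    have h1 : a * (v0 * v0) * a⁻¹ * (v0 * v0)⁻¹ = w * w := by
      have h2 := hVc _ (V.inv_mem hv0) _ hwV
      calc a * (v0 * v0) * a⁻¹ * (v0 * v0)⁻¹ = a * v0 * a⁻¹ * (w * v0⁻¹) := by rw [hw]; group
        _ = a * v0 * a⁻¹ * (v0⁻¹ * w) := by rw [h2]
        _ = w * w := by rw [hw]; group
    rcases hA _ (V.mul_mem hv0 hv0) with h | h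
    · rw [← h1, h]
    · rw [h1] at h
      exact absurd (mul_eq_left.mp h) hw1
  have haw : a * w * a⁻¹ = w := by
    rcases hA w hwV with h | h
    · have := congrArg (fun z => z * w) h
      simpa [mul_assoc] using this
    · exfalso
      apply hw1
      have h1 : a * w * a⁻¹ = w * w := by
        have := congrArg (fun z => z * w) h
        simpa [mul_assoc] using this
      rw [hw2] at h1
      have := congrArg (fun z => a⁻¹ * z * a) h1
      simpa [mul_assoc] using this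
  exact ⟨w, hwV, hw1, hw2, haw, hA⟩

end Cfsg.Agent.Lib.Helper6.WC2
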